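import Cfsg.Agent.H804.IF.Count

/-!
# S5719, alternating groups: the stabilizer is primitive on the `m` points (helper804)

`isPreprimitive` : in a counterexample with `T = A_m`, `m ≥ 7`, the group `P ≤ S_m` is primitive.
-/

set_option autoImplicit false
set_option linter.unusedSectionVars false

namespace Cfsg.Agent.H804.IF

open MulAction Subgroup Equiv Cfsg.Agent.H209.Fxy
open scoped Pointwise

variable {m : ℕ}

theorem coe_conjNormal (g : Perm (Fin m)) (b : ↥(alternatingGroup (Fin m))) :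
    ((MulAut.conjNormal g b : ↥(alternatingGroup (Fin m))) : Perm (Fin m)) = g * b * g⁻¹ :=
  MulAut.conjNormal_apply g b

theorem app_inv (g : Perm (Fin m)) (x : Fin m) : g (g⁻¹ x) = x := by
  rw [← Perm.mul_apply, mul_inv_cancel, Perm.one_apply]

theorem inv_app (g : Perm (Fin m)) (x : Fin m) : g⁻¹ (g x) = x := by
  rw [← Perm.mul_apply, inv_mul_cancel, Perm.one_apply]

/-! ### intransitive -/

/-- the stabilizer of a set -/
def stab (Δ : Set (Fin m)) : Subgroup ↥(alternatingGroup (Fin m)) where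
  carrier := {t | ∀ x, (t : Perm (Fin m)) x ∈ Δ ↔ x ∈ Δ}
  one_mem' := fun _ => Iff.rfl
  mul_mem' := fun {a b} ha hb x => (ha _).trans (hb x)
  inv_mem' := fun {a} ha x => by
    have h1 := ha ((a : Perm (Fin m))⁻¹ x)
    rw [app_inv] at h1
    exact h1.symm

theorem swap_mem_iff {Δ : Set (Fin m)} {a b : Fin m} (ha : a ∈ Δ) (hb : b ∈ Δ) (x : Fin m) :
    swap a b x ∈ Δ ↔ x ∈ Δ := by
  rcases eq_or_ne x a with rfl | hxa
  · rw [swap_apply_left]; exact ⟨fun _ => ha, fun _ => hb⟩
  · rcases eq_or_ne x b with rfl | hxb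
    · rw [swap_apply_right]; exact ⟨fun _ => hb, fun _ => ha⟩
    · rw [swap_apply_of_ne_of_ne hxa hxb]

theorem dt_mem_stab {Δ : Set (Fin m)} {e : Fin 4 ↪ Fin m} (he : ∀ i, e i ∈ Δ) : dt e ∈ stab Δ := by
  intro x
  rw [coe_dt, Perm.mul_apply, swap_mem_iff (he 0) (he 1), swap_mem_iff (he 2) (he 3)]

theorem desc_bound {k m : ℕ} (hk : 4 ≤ k) (hm : m ≤ 2 * k) : m.descFactorial 4 ≤ 70 * k.descFactorial 4 := by
  refine (Nat.descFactorial_le 4 hm).trans ?_
  obtain ⟨j, rfl⟩ := Nat.exists_eq_add_of_le hk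
  have h1 : (2 * (4 + j)).descFactorial 4 = (2 * j + 5) * ((2 * j + 6) * ((2 * j + 7) * (2 * j + 8))) := by
    have e1 : 2 * (4 + j) - 3 = 2 * j + 5 := by omega
    have e2 : 2 * (4 + j) - 2 = 2 * j + 6 := by omega
    have e3 : 2 * (4 + j) - 1 = 2 * j + 7 := by omega
    have e4 : 2 * (4 + j) = 2 * j + 8 := by omega
    rw [Nat.descFactorial_succ, Nat.descFactorial_succ, Nat.descFactorial_succ, Nat.descFactorial_succ,
      Nat.descFactorial_zero, e1, e2, e3, Nat.sub_zero, e4, mul_one]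
  have h2 : (4 + j).descFactorial 4 = (j + 1) * ((j + 2) * ((j + 3) * (j + 4))) := by
    have e1 : 4 + j - 3 = j + 1 := by omega
    have e2 : 4 + j - 2 = j + 2 := by omega
    have e3 : 4 + j - 1 = j + 3 := by omega
    rw [Nat.descFactorial_succ, Nat.descFactorial_succ, Nat.descFactorial_succ, Nat.descFactorial_succ,
      Nat.descFactorial_zero, e1, e2, e3, Nat.sub_zero, mul_one, Nat.add_comm 4 j]
  rw [h1, h2]
  nlinarith [sq_nonneg j, mul_nonneg (sq_nonneg j) (Nat.zero_le j), mul_nonneg (sq_nonneg j) (sq_nonneg j)]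

section

variable {A : Subgroup ↥(alternatingGroup (Fin m))} {Γ : Subgroup (MulAut ↥(alternatingGroup (Fin m)))}

/-- **No invariant set.** -/
theorem intrans_aux (hm : 7 ≤ m) (h : IF A Γ) (P : Subgroup (Perm (Fin m)))
    (hP : ∀ σ ∈ Γ, ∃ g ∈ P, σ = MulAut.conjNormal g) (hA : ∀ a ∈ A, (a : Perm (Fin m)) ∈ P)
    (Δ : Set (Fin m)) (hΔ : ∀ g ∈ P, ∀ x, g x ∈ Δ ↔ x ∈ Δ) (h0 : Δ.Nonempty) (h1 : Δ ≠ Set.univ)
    (h2 : m ≤ 2 * Δ.ncard) : False := by
  classical
  have hA' : A ≤ stab Δ := fun a ha x => hΔ _ (hA a ha) x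
  have hne : stab Δ ≠ ⊤ := by
    intro ht
    obtain ⟨x, hx⟩ := h0
    obtain ⟨y, hy⟩ := (Set.ne_univ_iff_exists_notMem Δ).1 h1
    obtain ⟨g, hg⟩ := trans_pt (by omega) x y
    have h3 : g ∈ stab Δ := by rw [ht]; exact mem_top _
    exact hy (hg ▸ (h3 x).2 hx)
  have hinv : ∀ σ ∈ Γ, ∀ b ∈ stab Δ, σ b ∈ stab Δ := by
    intro σ hσ b hb x
    obtain ⟨g, hg, rfl⟩ := hP σ hσ
    rw [coe_conjNormal, Perm.mul_apply, Perm.mul_apply, hΔ g hg, hb, hΔ g⁻¹ (P.inv_mem hg)]
  have hB : stab Δ = A := (h.max (stab Δ) hA' hinv).resolve_right hne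
  have hk : 4 ≤ Δ.ncard := by omega
  set S : Finset (Fin 4 ↪ Fin m) := Finset.univ.filter fun e => ∀ i, e i ∈ Δ with hS
  have hcard : Δ.ncard.descFactorial 4 ≤ S.card := by
    have h3 : Fintype.card (Fin 4 ↪ Δ) = Δ.ncard.descFactorial 4 := by
      rw [Fintype.card_embedding_eq, Fintype.card_fin, ← Nat.card_eq_fintype_card]
      rfl
    rw [← h3, ← Fintype.card_coe]
    refine Fintype.card_le_of_injective (fun e : Fin 4 ↪ Δ => (⟨e.trans (Function.Embedding.subtype _),
      Finset.mem_filter.2 ⟨Finset.mem_univ _, fun i => (e i).2⟩⟩ : S)) ?_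
    intro e e' hee
    have h4 := congrArg Subtype.val hee
    ext i
    exact congrArg Fin.val (DFunLike.congr_fun h4 i)
  have hpos : 0 < Δ.ncard.descFactorial 4 := Nat.descFactorial_pos.2 hk
  have hk1 := key (by omega) h S (fun e he => by
    rw [← hB]
    exact dt_mem_stab (Finset.mem_filter.1 he).2) (Finset.card_pos.1 (by omega))
  have h5 : m.descFactorial 4 ≤ 70 * S.card := (desc_bound hk h2).trans (by omega)
  have h6 : A.index ^ 5 * S.card ^ 6 < 70 ^ 6 * S.card ^ 6 := by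
    refine hk1.trans_le ?_
    rw [← mul_pow]
    exact Nat.pow_le_pow_left h5 6
  have h7 : A.index ^ 5 < 70 ^ 6 := Nat.lt_of_mul_lt_mul_right h6
  have h8 : 730 ^ 5 ≤ A.index ^ 5 := Nat.pow_le_pow_left h.big 5
  omega

/-- **`P` is transitive.** -/
theorem isPretransitive (hm : 7 ≤ m) (h : IF A Γ) (P : Subgroup (Perm (Fin m)))
    (hP : ∀ σ ∈ Γ, ∃ g ∈ P, σ = MulAut.conjNormal g) (hA : ∀ a ∈ A, (a : Perm (Fin m)) ∈ P) :
    IsPretransitive P (Fin m) := by
  classical
  by_contra hcon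
  have hex : ∃ x y : Fin m, y ∉ orbit P x := by
    by_contra h1
    push Not at h1
    exact hcon ⟨fun x y => h1 x y⟩
  obtain ⟨x, y, hxy⟩ := hex
  have hinv : ∀ g ∈ P, ∀ z, g z ∈ orbit P x ↔ z ∈ orbit P x := by
    intro g hg z
    constructor
    · intro h1
      have h2 := mem_orbit_of_mem_orbit (⟨g⁻¹, P.inv_mem hg⟩ : P) h1
      have h3 : (⟨g⁻¹, P.inv_mem hg⟩ : P) • (g z) = z := by
        show g⁻¹ (g z) = z
        exact inv_app g z
      rwa [h3] at h2
    · intro h1
      exact mem_orbit_of_mem_orbit (⟨g, hg⟩ : P) h1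
  have hsum : (orbit P x).ncard + (orbit P x)ᶜ.ncard = m := by
    rw [Set.ncard_add_ncard_compl, Nat.card_fin]
  rcases le_total (orbit P x)ᶜ.ncard (orbit P x).ncard with h1 | h1
  · exact intrans_aux hm h P hP hA (orbit P x) hinv ⟨x, mem_orbit_self x⟩
      (fun he => hxy (by rw [he]; exact Set.mem_univ _)) (by omega)
  · exact intrans_aux hm h P hP hA (orbit P x)ᶜ (fun g hg z => not_congr (hinv g hg z)) ⟨y, hxy⟩
      (fun he => (he.symm ▸ Set.mem_univ x : x ∈ (orbit P x)ᶜ) (mem_orbit_self x)) (by omega)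

end

/-! ### imprimitive -/

/-- the relation: `x`, `y` are in the same translates of `B` -/
def R (P : Subgroup (Perm (Fin m))) (B : Set (Fin m)) (x y : Fin m) : Prop := ∀ g : P, x ∈ g • B ↔ y ∈ g • B

section

variable {P : Subgroup (Perm (Fin m))} {B : Set (Fin m)}

theorem R.refl (x : Fin m) : R P B x x := fun _ => Iff.rfl
theorem R.symm {x y : Fin m} (h : R P B x y) : R P B y x := fun g => (h g).symm
theorem R.trans {x y z : Fin m} (h : R P B x y) (h' : R P B y z) : R P B x z := fun g => (h g).trans (h' g)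

theorem R.smul {x y : Fin m} (h : R P B x y) (g : P) : R P B ((g : Perm (Fin m)) x) ((g : Perm (Fin m)) y) := by
  intro k
  have key : ∀ z : Fin m, z ∈ (g⁻¹ * k) • B ↔ (g : Perm (Fin m)) z ∈ k • B := by
    intro z
    rw [mul_smul, Set.mem_smul_set_iff_inv_smul_mem, inv_inv]
    rfl
  rw [← key, ← key]
  exact h (g⁻¹ * k)

theorem R_iff {x y : Fin m} {g : Perm (Fin m)} (hg : g ∈ P) : R P B (g x) (g y) ↔ R P B x y := by
  constructor
  · intro h
    have h1 := h.smul ⟨g⁻¹, P.inv_mem hg⟩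
    have h2 : R P B (g⁻¹ (g x)) (g⁻¹ (g y)) := h1
    rwa [inv_app, inv_app] at h2
  · intro h
    exact h.smul ⟨g, hg⟩

/-- the class of a point -/
noncomputable def cls (P : Subgroup (Perm (Fin m))) (B : Set (Fin m)) (x : Fin m) : Finset (Fin m) := by
  classical exact Finset.univ.filter fun y => R P B x y

theorem mem_cls {x y : Fin m} : y ∈ cls P B x ↔ R P B x y := by
  unfold cls
  simp

theorem card_cls (hB : IsBlock P B) (htr : IsPretransitive P (Fin m)) (hne : B.Nonempty) (x : Fin m) :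
    (cls P B x).card = B.ncard := by
  obtain ⟨b, hb⟩ := hne
  obtain ⟨g, hg⟩ := htr.exists_smul_eq b x
  have hx : x ∈ g • B := ⟨b, hb, hg⟩
  have h1 : ((cls P B x : Finset (Fin m)) : Set (Fin m)) = g • B := by
    ext y
    rw [Finset.mem_coe, mem_cls]
    constructor
    · intro h
      exact (h g).1 hx
    · intro hy k
      constructor
      · intro hk
        have h2 : g • B = k • B := by
          by_contra hcon
          exact Set.disjoint_left.1 (hB hcon) hx hk
        rwa [← h2]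
      · intro hk
        have h2 : g • B = k • B := by
          by_contra hcon
          exact Set.disjoint_left.1 (hB hcon) hy hk
        rwa [← h2]
  rw [← Set.ncard_coe_finset, h1, Set.ncard_smul_set]

/-- the other points of the class -/
noncomputable def nb (P : Subgroup (Perm (Fin m))) (B : Set (Fin m)) (x : Fin m) : Finset (Fin m) := by
  classical exact (cls P B x).erase x

theorem mem_nb {x y : Fin m} : y ∈ nb P B x ↔ y ≠ x ∧ R P B x y := by
  unfold nb
  rw [Finset.mem_erase, mem_cls]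

theorem card_nb (hB : IsBlock P B) (htr : IsPretransitive P (Fin m)) (hne : B.Nonempty) (x : Fin m) :
    (nb P B x).card = B.ncard - 1 := by
  classical
  unfold nb
  rw [Finset.card_erase_of_mem (mem_cls.2 (R.refl x)), card_cls hB htr hne]

/-- pairs in a class, first point in `U` -/
theorem card_pairs (hB : IsBlock P B) (htr : IsPretransitive P (Fin m)) (hne : B.Nonempty) (U : Finset (Fin m)) :
    (U.sigma fun x => nb P B x).card = U.card * (B.ncard - 1) := by
  rw [Finset.card_sigma, Finset.sum_congr rfl fun x _ => card_nb hB htr hne x, Finset.sum_const, smul_eq_mul]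

/-- the tuples of two pairs -/
theorem four_le (hB : IsBlock P B) (htr : IsPretransitive P (Fin m)) (hne : B.Nonempty)
    (S : Finset (Fin 4 ↪ Fin m)) (hS : ∀ e : Fin 4 ↪ Fin m, R P B (e 0) (e 1) → R P B (e 2) (e 3) → e ∈ S) :
    (m * (B.ncard - 1)) * ((m - B.ncard) * (B.ncard - 1)) ≤ S.card := by
  classical
  let D : Finset (Σ _ : (Σ _ : Fin m, Fin m), (Σ _ : Fin m, Fin m)) :=
    ((Finset.univ : Finset (Fin m)).sigma fun x => nb P B x).sigma fun p =>
      ((cls P B p.1)ᶜ).sigma fun x => nb P B x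
  have hD : D.card = (m * (B.ncard - 1)) * ((m - B.ncard) * (B.ncard - 1)) := by
    show (((Finset.univ : Finset (Fin m)).sigma fun x => nb P B x).sigma fun p =>
      ((cls P B p.1)ᶜ).sigma fun x => nb P B x).card = _
    rw [Finset.card_sigma]
    rw [Finset.sum_congr rfl fun p _ => by
      rw [card_pairs hB htr hne, Finset.card_compl, card_cls hB htr hne, Fintype.card_fin]]
    rw [Finset.sum_const, card_pairs hB htr hne, Finset.card_univ, Fintype.card_fin, smul_eq_mul]
  rw [← hD]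
  have hval : ∀ d ∈ D, d.1.1 ≠ d.1.2 ∧ d.2.1 ≠ d.2.2 ∧ R P B d.1.1 d.1.2 ∧ R P B d.2.1 d.2.2 ∧
      ¬ R P B d.1.1 d.2.1 := by
    rintro ⟨⟨x, y⟩, ⟨z, w⟩⟩ hd
    rw [Finset.mem_sigma, Finset.mem_sigma, Finset.mem_sigma] at hd
    obtain ⟨⟨-, h1⟩, h2, h3⟩ := hd
    have h1' := mem_nb.1 h1
    have h3' := mem_nb.1 h3
    have h2' : ¬ R P B x z := fun h => (Finset.mem_compl.1 h2) (mem_cls.2 h)
    exact ⟨h1'.1.symm, h3'.1.symm, h1'.2, h3'.2, h2'⟩
  have hinj : ∀ d ∈ D, Function.Injective (![d.1.1, d.1.2, d.2.1, d.2.2] : Fin 4 → Fin m) := by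
    intro d hd
    obtain ⟨h1, h2, h3, h4, h5⟩ := hval d hd
    have h6 : d.1.1 ≠ d.2.1 := fun h => h5 (h ▸ R.refl _)
    have h7 : d.1.1 ≠ d.2.2 := fun h => h5 (h ▸ h4.symm)
    have h8 : d.1.2 ≠ d.2.1 := fun h => h5 (h ▸ h3)
    have h9 : d.1.2 ≠ d.2.2 := fun h => h5 ((h ▸ h3).trans h4.symm)
    intro i j hij
    fin_cases i <;> fin_cases j
    · rfl
    · exact absurd hij h1
    · exact absurd hij h6
    · exact absurd hij h7
    · exact absurd hij.symm h1
    · rfl
    · exact absurd hij h8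
    · exact absurd hij h9
    · exact absurd hij.symm h6
    · exact absurd hij.symm h8
    · rfl
    · exact absurd hij h2
    · exact absurd hij.symm h7
    · exact absurd hij.symm h9
    · exact absurd hij.symm h2
    · rfl
  refine Finset.card_le_card_of_surjOn (fun e => ⟨⟨e 0, e 1⟩, ⟨e 2, e 3⟩⟩) ?_
  intro d hd
  rw [Finset.mem_coe] at hd
  obtain ⟨-, -, h3, h4, -⟩ := hval d hd
  exact ⟨⟨_, hinj d hd⟩, Finset.mem_coe.2 (hS _ h3 h4), rfl⟩

/-- the tuples of three pairs in different classes -/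
theorem six_le (hB : IsBlock P B) (htr : IsPretransitive P (Fin m)) (hne : B.Nonempty)
    (S : Finset (Fin 6 ↪ Fin m)) (hS : ∀ e ∈ S, R P B (e 0) (e 1) ∧ R P B (e 2) (e 3) ∧ R P B (e 4) (e 5) ∧
      ¬ R P B (e 0) (e 2) ∧ ¬ R P B (e 0) (e 4) ∧ ¬ R P B (e 2) (e 4)) :
    S.card ≤ (m * (B.ncard - 1)) * (((m - B.ncard) * (B.ncard - 1)) * ((m - 2 * B.ncard) * (B.ncard - 1))) := by
  classical
  let Q := (Σ _ : Fin m, Fin m)
  let D : Finset (Σ _ : Q, (Σ _ : Q, Q)) :=
    ((Finset.univ : Finset (Fin m)).sigma fun x => nb P B x).sigma fun p =>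
      (((cls P B p.1)ᶜ).sigma fun x => nb P B x).sigma fun q =>
        ((cls P B p.1 ∪ cls P B q.1)ᶜ).sigma fun x => nb P B x
  have hD : D.card = (m * (B.ncard - 1)) * (((m - B.ncard) * (B.ncard - 1)) * ((m - 2 * B.ncard) * (B.ncard - 1))) := by
    have h1 : ∀ p : Q, ((((cls P B p.1)ᶜ).sigma fun x => nb P B x).sigma fun q =>
        ((cls P B p.1 ∪ cls P B q.1)ᶜ).sigma fun x => nb P B x).card =
          ((m - B.ncard) * (B.ncard - 1)) * ((m - 2 * B.ncard) * (B.ncard - 1)) := by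
      intro p
      have h2 : ∀ q ∈ (((cls P B p.1)ᶜ).sigma fun x => nb P B x),
          (((cls P B p.1 ∪ cls P B q.1)ᶜ).sigma fun x => nb P B x).card = (m - 2 * B.ncard) * (B.ncard - 1) := by
        intro q hq
        rw [Finset.mem_sigma] at hq
        have h3 : Disjoint (cls P B p.1) (cls P B q.1) := by
          rw [Finset.disjoint_left]
          intro y hy hy'
          exact (Finset.mem_compl.1 hq.1) (mem_cls.2 ((mem_cls.1 hy).trans (mem_cls.1 hy').symm))
        rw [card_pairs hB htr hne, Finset.card_compl, Finset.card_union_of_disjoint h3, card_cls hB htr hne,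
          card_cls hB htr hne, Fintype.card_fin, two_mul]
      rw [Finset.card_sigma, Finset.sum_congr rfl h2, Finset.sum_const, card_pairs hB htr hne, Finset.card_compl,
        card_cls hB htr hne, Fintype.card_fin, smul_eq_mul]
    show (((Finset.univ : Finset (Fin m)).sigma fun x => nb P B x).sigma fun p =>
      (((cls P B p.1)ᶜ).sigma fun x => nb P B x).sigma fun q =>
        ((cls P B p.1 ∪ cls P B q.1)ᶜ).sigma fun x => nb P B x).card = _
    rw [Finset.card_sigma, Finset.sum_congr rfl fun p _ => h1 p, Finset.sum_const, card_pairs hB htr hne,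
      Finset.card_univ, Fintype.card_fin, smul_eq_mul]
  rw [← hD]
  refine Finset.card_le_card_of_injOn (fun e => ⟨⟨e 0, e 1⟩, ⟨⟨e 2, e 3⟩, ⟨e 4, e 5⟩⟩⟩) ?_ ?_
  · intro e he
    obtain ⟨h1, h2, h3, h4, h5, h6⟩ := hS e (Finset.mem_coe.1 he)
    have k1 : e 1 ≠ e 0 := fun h => absurd (e.injective h) (by decide)
    have k2 : e 3 ≠ e 2 := fun h => absurd (e.injective h) (by decide)
    have k3 : e 5 ≠ e 4 := fun h => absurd (e.injective h) (by decide)
    rw [Finset.mem_coe]
    refine Finset.mem_sigma.2 ⟨Finset.mem_sigma.2 ⟨Finset.mem_univ _, mem_nb.2 ⟨k1, h1⟩⟩,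
      Finset.mem_sigma.2 ⟨Finset.mem_sigma.2 ⟨Finset.mem_compl.2 fun h => h4 (mem_cls.1 h), mem_nb.2 ⟨k2, h2⟩⟩,
        Finset.mem_sigma.2 ⟨Finset.mem_compl.2 fun h => ?_, mem_nb.2 ⟨k3, h3⟩⟩⟩⟩
    rcases Finset.mem_union.1 h with h | h
    · exact h5 (mem_cls.1 h)
    · exact h6 (mem_cls.1 h)
  · intro e _ e' _ h
    have h' : ((⟨⟨e 0, e 1⟩, ⟨⟨e 2, e 3⟩, ⟨e 4, e 5⟩⟩⟩ : Σ _ : Q, (Σ _ : Q, Q))) =
      ⟨⟨e' 0, e' 1⟩, ⟨⟨e' 2, e' 3⟩, ⟨e' 4, e' 5⟩⟩⟩ := h
    have a0 : e 0 = e' 0 := congrArg (fun d : (Σ _ : Q, (Σ _ : Q, Q)) => d.1.1) h'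
    have a1 : e 1 = e' 1 := congrArg (fun d : (Σ _ : Q, (Σ _ : Q, Q)) => d.1.2) h'
    have a2 : e 2 = e' 2 := congrArg (fun d : (Σ _ : Q, (Σ _ : Q, Q)) => d.2.1.1) h'
    have a3 : e 3 = e' 3 := congrArg (fun d : (Σ _ : Q, (Σ _ : Q, Q)) => d.2.1.2) h'
    have a4 : e 4 = e' 4 := congrArg (fun d : (Σ _ : Q, (Σ _ : Q, Q)) => d.2.2.1) h'
    have a5 : e 5 = e' 5 := congrArg (fun d : (Σ _ : Q, (Σ _ : Q, Q)) => d.2.2.2) h'
    refine Function.Embedding.ext fun i => ?_
    fin_cases i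
    · exact a0
    · exact a1
    · exact a2
    · exact a3
    · exact a4
    · exact a5

end

/-! ### numbers -/

theorem num_one {a b : ℕ} (ha : 1 ≤ a) (hb : 1 ≤ b) :
    (a * b + a + b) * ((a * b + a + b - 1) * (a * b + a + b - 2)) ≤ 4 * (b + 1) ^ 2 * (a * (a * ((a + 1) * b))) := by
  obtain ⟨b, rfl⟩ := Nat.exists_eq_add_of_le' hb
  rcases Nat.lt_or_ge a 3 with h | h
  · interval_cases a
    · have e1 : 1 * (b + 1) + 1 + (b + 1) = 2 * b + 3 := by ring
      have e2 : 2 * b + 3 - 1 = 2 * b + 2 := by omega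
      have e3 : 2 * b + 3 - 2 = 2 * b + 1 := by omega
      rw [e1, e2, e3]
      nlinarith [sq_nonneg b, mul_nonneg (sq_nonneg b) (Nat.zero_le b)]
    · have e1 : 2 * (b + 1) + 2 + (b + 1) = 3 * b + 5 := by ring
      have e2 : 3 * b + 5 - 1 = 3 * b + 4 := by omega
      have e3 : 3 * b + 5 - 2 = 3 * b + 3 := by omega
      rw [e1, e2, e3]
      nlinarith [sq_nonneg b, mul_nonneg (sq_nonneg b) (Nat.zero_le b)]
  · have h1 : a * (b + 1) + a + (b + 1) ≤ (a + 1) * (b + 2) := by nlinarith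
    have h2 : a * (b + 1) + a + (b + 1) - 1 ≤ (a + 1) * (b + 2) := (Nat.sub_le _ _).trans h1
    have h3 : a * (b + 1) + a + (b + 1) - 2 ≤ (a + 1) * (b + 2) := (Nat.sub_le _ _).trans h1
    have h4 : (a + 1) * (a + 1) ≤ 2 * (a * a) := by nlinarith
    calc (a * (b + 1) + a + (b + 1)) * ((a * (b + 1) + a + (b + 1) - 1) * (a * (b + 1) + a + (b + 1) - 2))
        ≤ ((a + 1) * (b + 2)) * (((a + 1) * (b + 2)) * ((a + 1) * (b + 2))) :=
          Nat.mul_le_mul h1 (Nat.mul_le_mul h2 h3)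
      _ = ((a + 1) * (a + 1)) * ((a + 1) * ((b + 2) ^ 2 * (b + 2))) := by ring
      _ ≤ (2 * (a * a)) * ((a + 1) * ((b + 2) ^ 2 * (2 * (b + 1)))) := by
          refine Nat.mul_le_mul h4 (Nat.mul_le_mul_left _ (Nat.mul_le_mul_left _ (by omega)))
      _ = _ := by ring

theorem num_two {a b : ℕ} (ha : 2 ≤ a) (hb : 2 ≤ b) :
    (a * b - 1) * ((a * b - 2) * (a * b - 3)) ≤ 4 * b ^ 2 * ((a - 1) * ((a * b - a) * (a - 1))) := by
  obtain ⟨x, rfl⟩ := Nat.exists_eq_add_of_le' (show 1 ≤ a by omega)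
  obtain ⟨y, rfl⟩ := Nat.exists_eq_add_of_le' (show 1 ≤ b by omega)
  have h1 := num_one (a := x) (b := y) (by omega) (by omega)
  have e : (x + 1) * (y + 1) = x * y + x + y + 1 := by ring
  have e1 : (x + 1) * (y + 1) - 1 = x * y + x + y := by omega
  have e2 : (x + 1) * (y + 1) - 2 = x * y + x + y - 1 := by omega
  have e3 : (x + 1) * (y + 1) - 3 = x * y + x + y - 2 := by omega
  have e4 : (x + 1) * (y + 1) - (x + 1) = (x + 1) * y := by
    rw [Nat.mul_succ, Nat.add_sub_cancel]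
  rw [e1, e2, e3, e4, Nat.add_sub_cancel]
  refine h1.trans (le_of_eq ?_)
  ring

/-- the end of the imprimitive case -/
theorem num_end {n a b m : ℕ} (hmdef : m = a * b) (ha : 2 ≤ a) (hb : 2 ≤ b) (hm : 7 ≤ m) (hn : 729 < n)
    (h1 : n ^ 5 * ((m * (a - 1)) * ((m - a) * (a - 1))) ^ 6 < m.descFactorial 4 ^ 6)
    (h2 : 8 ≤ b → m.descFactorial 6 ≤
      n * ((m * (a - 1)) * (((m - a) * (a - 1)) * ((m - 2 * a) * (a - 1))))) : False := by
  set U := (a - 1) * ((m - a) * (a - 1)) with hU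
  set V := (m - 1) * ((m - 2) * (m - 3)) with hV
  have hd4 : m.descFactorial 4 = m * V := by
    rw [Nat.descFactorial_succ, Nat.descFactorial_succ, Nat.descFactorial_succ, Nat.descFactorial_succ,
      Nat.descFactorial_zero, Nat.sub_zero, mul_one, hV]
    ring
  have hU4 : (m * (a - 1)) * ((m - a) * (a - 1)) = m * U := by rw [hU]; ring
  have hm0 : 0 < m := by omega
  have hma : a < m := by rw [hmdef]; nlinarith
  have hUpos : 0 < U := by
    have h3 : 0 < a - 1 := by omega
    have h4 : 0 < m - a := by omega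
    positivity
  have hVU : V ≤ 4 * b ^ 2 * U := by
    rw [hV, hU, hmdef]
    exact num_two ha hb
  have k1 : n ^ 5 * U ^ 6 < V ^ 6 := by
    rw [hU4, hd4] at h1
    have h3 : m ^ 6 * (n ^ 5 * U ^ 6) < m ^ 6 * V ^ 6 := by
      calc m ^ 6 * (n ^ 5 * U ^ 6) = n ^ 5 * (m * U) ^ 6 := by ring
        _ < (m * V) ^ 6 := h1
        _ = m ^ 6 * V ^ 6 := by ring
    exact Nat.lt_of_mul_lt_mul_left h3
  rcases Nat.lt_or_ge b 8 with hb8 | hb8
  · have h3 : V ≤ 196 * U := by
      refine hVU.trans (Nat.mul_le_mul_right _ ?_)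
      have : b ≤ 7 := by omega
      nlinarith
    have h4 : n ^ 5 * U ^ 6 < 196 ^ 6 * U ^ 6 := by
      refine k1.trans_le ?_
      rw [← mul_pow]
      exact Nat.pow_le_pow_left h3 6
    have h5 : n ^ 5 < 196 ^ 6 := Nat.lt_of_mul_lt_mul_right h4
    have h6 : 730 ^ 5 ≤ n ^ 5 := Nat.pow_le_pow_left hn 5
    omega
  · have h3 := h2 hb8
    have hd6 : m.descFactorial 6 = m * (V * ((m - 4) * (m - 5))) := by
      rw [Nat.descFactorial_succ, Nat.descFactorial_succ, hd4]
      ring
    have hb6 : m - 5 ≥ b * (a - 1) := by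
      have e1 : b * (a - 1) = m - b := by rw [hmdef, Nat.mul_sub, mul_one, mul_comm b a]
      rw [e1]
      omega
    have ham : m - 4 ≥ m - 2 * a := by omega
    have h2a : 0 < m - 2 * a := by
      have : 2 * a < m := by rw [hmdef]; nlinarith
      omega
    have h4 : V * b ≤ n * U := by
      have h5 : (V * b) * ((a - 1) * (m - 2 * a)) ≤ (n * U) * ((a - 1) * (m - 2 * a)) := by
        have h6 : m * (V * ((m - 4) * (m - 5))) ≤ m * (n * U * ((m - 2 * a) * (a - 1))) := by
          rw [← hd6]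
          refine h3.trans (le_of_eq ?_)
          rw [hU]
          ring
        have h7 := Nat.le_of_mul_le_mul_left h6 hm0
        calc (V * b) * ((a - 1) * (m - 2 * a)) = V * ((m - 2 * a) * (b * (a - 1))) := by ring
          _ ≤ V * ((m - 4) * (m - 5)) := Nat.mul_le_mul_left _ (Nat.mul_le_mul ham hb6)
          _ ≤ n * U * ((m - 2 * a) * (a - 1)) := h7
          _ = _ := by ring
      refine Nat.le_of_mul_le_mul_right h5 (Nat.mul_pos (by omega) h2a)
    have hVpos : 0 < V := by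
      have e1 : 0 < m - 1 := by omega
      have e2 : 0 < m - 2 := by omega
      have e3 : 0 < m - 3 := by omega
      positivity
    have h5 : V ^ 5 * (b ^ 5 * U) < V ^ 5 * V := by
      calc V ^ 5 * (b ^ 5 * U) = (V * b) ^ 5 * U := by ring
        _ ≤ (n * U) ^ 5 * U := Nat.mul_le_mul_right _ (Nat.pow_le_pow_left h4 5)
        _ = n ^ 5 * U ^ 6 := by ring
        _ < V ^ 6 := k1
        _ = V ^ 5 * V := by ring
    have h6 : b ^ 5 * U < V := Nat.lt_of_mul_lt_mul_left h5
    have h7 : b ^ 5 * U < 4 * b ^ 2 * U := h6.trans_le hVU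
    have h8 : b ^ 5 < 4 * b ^ 2 := Nat.lt_of_mul_lt_mul_right h7
    have h9 : 4 * b ^ 2 ≤ b ^ 5 := by
      calc 4 * b ^ 2 ≤ b ^ 3 * b ^ 2 := Nat.mul_le_mul_right _ (by nlinarith)
        _ = b ^ 5 := by ring
    omega

section

variable {A : Subgroup ↥(alternatingGroup (Fin m))} {Γ : Subgroup (MulAut ↥(alternatingGroup (Fin m)))}

/-- the stabilizer of the relation -/
def stabR (P : Subgroup (Perm (Fin m))) (B : Set (Fin m)) : Subgroup ↥(alternatingGroup (Fin m)) where
  carrier := {t | ∀ x y, R P B ((t : Perm (Fin m)) x) ((t : Perm (Fin m)) y) ↔ R P B x y}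
  one_mem' := fun _ _ => Iff.rfl
  mul_mem' := fun {a b} ha hb x y => (ha _ _).trans (hb x y)
  inv_mem' := fun {a} ha x y => by
    have h1 := ha ((a : Perm (Fin m))⁻¹ x) ((a : Perm (Fin m))⁻¹ y)
    rw [app_inv, app_inv] at h1
    exact h1.symm

theorem R_swap {P : Subgroup (Perm (Fin m))} {B : Set (Fin m)} {a b : Fin m} (h : R P B a b) (x : Fin m) :
    R P B (swap a b x) x := by
  rcases eq_or_ne x a with rfl | hxa
  · rw [swap_apply_left]; exact h.symm
  · rcases eq_or_ne x b with rfl | hxb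
    · rw [swap_apply_right]; exact h
    · rw [swap_apply_of_ne_of_ne hxa hxb]; exact R.refl _

theorem dt_mem_stabR {P : Subgroup (Perm (Fin m))} {B : Set (Fin m)} {e : Fin 4 ↪ Fin m}
    (h1 : R P B (e 0) (e 1)) (h2 : R P B (e 2) (e 3)) : dt e ∈ stabR P B := by
  have key : ∀ x, R P B (((dt e : ↥(alternatingGroup (Fin m))) : Perm (Fin m)) x) x := by
    intro x
    rw [coe_dt, Perm.mul_apply]
    exact (R_swap h1 _).trans (R_swap h2 x)
  intro x y
  constructor
  · intro h
    exact ((key x).symm.trans h).trans (key y)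
  · intro h
    exact ((key x).trans h).trans (key y).symm

/-- **`P` is primitive.** -/
theorem isPreprimitive (hm : 7 ≤ m) (h : IF A Γ) (P : Subgroup (Perm (Fin m)))
    (hP : ∀ σ ∈ Γ, ∃ g ∈ P, σ = MulAut.conjNormal g) (hA : ∀ a ∈ A, (a : Perm (Fin m)) ∈ P) :
    IsPreprimitive P (Fin m) := by
  classical
  have htr := isPretransitive hm h P hP hA
  by_contra hcon
  have hex : ∃ B : Set (Fin m), IsBlock P B ∧ ¬ IsTrivialBlock B := by
    by_contra h1
    push Not at h1
    exact hcon { toIsPretransitive := htr, isTrivialBlock_of_isBlock := fun {B} hB => h1 B hB }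
  obtain ⟨B, hB, hBt⟩ := hex
  unfold IsTrivialBlock at hBt
  push Not at hBt
  obtain ⟨hsub, huniv⟩ := hBt
  have hne : B.Nonempty := hsub.nonempty
  have ha2 : 2 ≤ B.ncard := (Set.one_lt_ncard_iff_nontrivial).2 hsub
  obtain ⟨b, hb⟩ : B.ncard ∣ m := by
    have h1 := hB.ncard_dvd_card hne
    rwa [Nat.card_fin] at h1
  have hblt : B.ncard < m := by
    have h1 := Set.ncard_lt_card huniv
    rwa [Nat.card_fin] at h1
  have hb2 : 2 ≤ b := by
    by_contra hlt
    have : b = 0 ∨ b = 1 := by omega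
    rcases this with rfl | rfl <;> omega
  have hRA : A ≤ stabR P B := fun a ha x y => R_iff (hA a ha)
  have hinv : ∀ σ ∈ Γ, ∀ t ∈ stabR P B, σ t ∈ stabR P B := by
    intro σ hσ t ht x y
    obtain ⟨g, hg, rfl⟩ := hP σ hσ
    rw [coe_conjNormal, Perm.mul_apply, Perm.mul_apply, Perm.mul_apply, Perm.mul_apply, R_iff hg, ht,
      R_iff (P.inv_mem hg)]
  have hnt : stabR P B ≠ ⊤ := by
    intro ht
    obtain ⟨x, y, hxy, hRxy⟩ : ∃ x y : Fin m, y ≠ x ∧ R P B x y := by
      obtain ⟨x, -, y, -, -⟩ := hsub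
      have h1 := card_nb hB htr hne x
      have h2 : 0 < (nb P B x).card := by omega
      obtain ⟨y, hy⟩ := Finset.card_pos.1 h2
      exact ⟨x, y, (mem_nb.1 hy).1, (mem_nb.1 hy).2⟩
    obtain ⟨z, hz⟩ : ∃ z, ¬ R P B x z := by
      by_contra hall
      push Not at hall
      have h1 := card_cls hB htr hne x
      have h2 : cls P B x = Finset.univ := by
        ext z
        simp only [mem_cls, Finset.mem_univ, iff_true]
        exact hall z
      rw [h2, Finset.card_univ, Fintype.card_fin] at h1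
      omega
    have hxz : z ≠ x := fun h => hz (h ▸ R.refl _)
    have hi1 : Function.Injective (![x, y] : Fin 2 → Fin m) := by
      intro i j hij
      fin_cases i <;> fin_cases j
      · rfl
      · exact absurd hij hxy.symm
      · exact absurd hij hxy
      · rfl
    have hi2 : Function.Injective (![x, z] : Fin 2 → Fin m) := by
      intro i j hij
      fin_cases i <;> fin_cases j
      · rfl
      · exact absurd hij hxz.symm
      · exact absurd hij hxz
      · rfl
    obtain ⟨g, hg⟩ := pretrans 2 (by omega) (⟨_, hi1⟩ : Fin 2 ↪ Fin m) ⟨_, hi2⟩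
    have g0 : (g : Perm (Fin m)) x = x := DFunLike.congr_fun hg 0
    have g1 : (g : Perm (Fin m)) y = z := DFunLike.congr_fun hg 1
    have h3 : g ∈ stabR P B := by rw [ht]; exact mem_top _
    have h4 := (h3 x y).2 hRxy
    rw [g0, g1] at h4
    exact hz h4
  have hEq : stabR P B = A := (h.max _ hRA hinv).resolve_right hnt
  -- the 4-tuples
  let S4 : Finset (Fin 4 ↪ Fin m) := Finset.univ.filter fun e => R P B (e 0) (e 1) ∧ R P B (e 2) (e 3)
  have h4 := four_le hB htr hne S4 (fun e h1 h2 => Finset.mem_filter.2 ⟨Finset.mem_univ _, h1, h2⟩)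
  have hbm : B.ncard * b = m := hb.symm
  have hpos4 : 0 < (m * (B.ncard - 1)) * ((m - B.ncard) * (B.ncard - 1)) := by
    have e1 : 0 < B.ncard - 1 := by omega
    have e2 : 0 < m - B.ncard := by omega
    have e3 : 0 < m := by omega
    positivity
  have hkey := key (by omega) h S4 (fun e he => by
    rw [← hEq]
    exact dt_mem_stabR (Finset.mem_filter.1 he).2.1 (Finset.mem_filter.1 he).2.2) (Finset.card_pos.1 (by omega))
  have hkey' : A.index ^ 5 * ((m * (B.ncard - 1)) * ((m - B.ncard) * (B.ncard - 1))) ^ 6 < m.descFactorial 4 ^ 6 :=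
    (Nat.mul_le_mul_left _ (Nat.pow_le_pow_left h4 6)).trans_lt hkey
  -- the 6-tuples
  have h6 : 8 ≤ b → m.descFactorial 6 ≤ A.index * ((m * (B.ncard - 1)) *
      (((m - B.ncard) * (B.ncard - 1)) * ((m - 2 * B.ncard) * (B.ncard - 1)))) := by
    intro hb8
    let S6 : Finset (Fin 6 ↪ Fin m) := Finset.univ.filter fun e => R P B (e 0) (e 1) ∧ R P B (e 2) (e 3) ∧
      R P B (e 4) (e 5) ∧ ¬ R P B (e 0) (e 2) ∧ ¬ R P B (e 0) (e 4) ∧ ¬ R P B (e 2) (e 4)
    have hS6 : ∀ e ∈ S6, R P B (e 0) (e 1) ∧ R P B (e 2) (e 3) ∧ R P B (e 4) (e 5) ∧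
      ¬ R P B (e 0) (e 2) ∧ ¬ R P B (e 0) (e 4) ∧ ¬ R P B (e 2) (e 4) := fun e he => (Finset.mem_filter.1 he).2
    have h7 := six_le hB htr hne S6 hS6
    have hm8 : 8 ≤ m := by nlinarith
    have hinvS : ∀ a ∈ A, ∀ e ∈ S6, a • e ∈ S6 := by
      intro a ha e he
      obtain ⟨k1, k2, k3, k4, k5, k6⟩ := hS6 e he
      have hr : ∀ i j, R P B ((a • e) i) ((a • e) j) ↔ R P B (e i) (e j) := fun i j => R_iff (hA a ha)
      refine Finset.mem_filter.2 ⟨Finset.mem_univ _, ?_⟩
      rw [hr, hr, hr, hr, hr, hr]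
      exact ⟨k1, k2, k3, k4, k5, k6⟩
    have hneS : S6.Nonempty := by
      -- three classes
      have hpair : ∀ x, ∃ y, y ≠ x ∧ R P B x y := by
        intro x
        have h1 := card_nb hB htr hne x
        obtain ⟨y, hy⟩ := Finset.card_pos.1 (show 0 < (nb P B x).card by omega)
        exact ⟨y, (mem_nb.1 hy).1, (mem_nb.1 hy).2⟩
      have x : Fin m := ⟨0, by omega⟩
      have hc1 : 0 < ((cls P B x)ᶜ).card := by
        rw [Finset.card_compl, card_cls hB htr hne, Fintype.card_fin]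
        omega
      obtain ⟨z, hz⟩ := Finset.card_pos.1 hc1
      have hxz : ¬ R P B x z := fun h => (Finset.mem_compl.1 hz) (mem_cls.2 h)
      have hc2 : 0 < ((cls P B x ∪ cls P B z)ᶜ).card := by
        rw [Finset.card_compl, Fintype.card_fin]
        have e1 := Finset.card_union_le (cls P B x) (cls P B z)
        rw [card_cls hB htr hne, card_cls hB htr hne] at e1
        have e2 : 2 * B.ncard < m := by nlinarith
        omega
      obtain ⟨u, hu⟩ := Finset.card_pos.1 hc2
      have hxu : ¬ R P B x u := fun h => (Finset.mem_compl.1 hu) (Finset.mem_union_left _ (mem_cls.2 h))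
      have hzu : ¬ R P B z u := fun h => (Finset.mem_compl.1 hu) (Finset.mem_union_right _ (mem_cls.2 h))
      obtain ⟨y, hy, hxy⟩ := hpair x
      obtain ⟨w, hw, hzw⟩ := hpair z
      obtain ⟨v, hv, huv⟩ := hpair u
      have n1 : x ≠ z := fun h => hxz (h ▸ R.refl _)
      have n2 : x ≠ w := fun h => hxz (h ▸ hzw.symm)
      have n3 : x ≠ u := fun h => hxu (h ▸ R.refl _)
      have n4 : x ≠ v := fun h => hxu (h ▸ huv.symm)
      have n5 : y ≠ z := fun h => hxz (h ▸ hxy)
      have n6 : y ≠ w := fun h => hxz ((h ▸ hxy).trans hzw.symm)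
      have n7 : y ≠ u := fun h => hxu (h ▸ hxy)
      have n8 : y ≠ v := fun h => hxu ((h ▸ hxy).trans huv.symm)
      have n9 : z ≠ u := fun h => hzu (h ▸ R.refl _)
      have n10 : z ≠ v := fun h => hzu (h ▸ huv.symm)
      have n11 : w ≠ u := fun h => hzu (h ▸ hzw)
      have n12 : w ≠ v := fun h => hzu ((h ▸ hzw).trans huv.symm)
      have hi : Function.Injective (![x, y, z, w, u, v] : Fin 6 → Fin m) := by
        intro i j hij
        fin_cases i <;> fin_cases j
        · rfl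
        · exact absurd hij hy.symm
        · exact absurd hij n1
        · exact absurd hij n2
        · exact absurd hij n3
        · exact absurd hij n4
        · exact absurd hij hy
        · rfl
        · exact absurd hij n5
        · exact absurd hij n6
        · exact absurd hij n7
        · exact absurd hij n8
        · exact absurd hij n1.symm
        · exact absurd hij n5.symm
        · rfl
        · exact absurd hij hw.symm
        · exact absurd hij n9
        · exact absurd hij n10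
        · exact absurd hij n2.symm
        · exact absurd hij n6.symm
        · exact absurd hij hw
        · rfl
        · exact absurd hij n11
        · exact absurd hij n12
        · exact absurd hij n3.symm
        · exact absurd hij n7.symm
        · exact absurd hij n9.symm
        · exact absurd hij n11.symm
        · rfl
        · exact absurd hij hv.symm
        · exact absurd hij n4.symm
        · exact absurd hij n8.symm
        · exact absurd hij n10.symm
        · exact absurd hij n12.symm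
        · exact absurd hij hv
        · rfl
      exact ⟨⟨_, hi⟩, Finset.mem_filter.2 ⟨Finset.mem_univ _, hxy, hzw, huv, hxz, hxu, hzu⟩⟩
    exact (count_six hm8 A S6 hinvS hneS).trans (Nat.mul_le_mul_left _ h7)
  exact num_end hb ha2 hb2 hm h.big hkey' h6

end

end Cfsg.Agent.H804.IF
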