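import Cfsg.Agent.H209.IF.Defs
import Mathlib.GroupTheory.SpecificGroups.Alternating.MaximalSubgroups

/-!
# S5719, alternating groups: counting with double transpositions (helper804)

* `dt e` : the double transposition `(e 0 e 1)(e 2 e 3)` in the alternating group;
* `count_dt` : `|T : A| * |S| ≤ m (m-1) (m-2) (m-3) * fx A (dt e₀)` for a set `S` of tuples `e` with `dt e ∈ A`;
* `key` : `|T : A| ^ 5 * |S| ^ 6 < (m (m-1) (m-2) (m-3)) ^ 6` in a counterexample;
* `count_six` : `m (m-1) ⋯ (m-5) ≤ |T : A| * |S|` for an `A`-invariant set `S ≠ ∅` of 6-tuples.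
-/

set_option autoImplicit false
set_option linter.unusedSectionVars false

namespace Cfsg.Agent.H804.IF

open MulAction Subgroup Equiv Cfsg.Agent.H209.Fxy

variable {m : ℕ}

/-- the double transposition of a tuple -/
def dt (e : Fin 4 ↪ Fin m) : ↥(alternatingGroup (Fin m)) :=
  ⟨swap (e 0) (e 1) * swap (e 2) (e 3), by
    have h1 : e 0 ≠ e 1 := fun h => absurd (e.injective h) (by decide)
    have h2 : e 2 ≠ e 3 := fun h => absurd (e.injective h) (by decide)
    rw [Perm.mem_alternatingGroup, Perm.sign_mul, Perm.sign_swap h1, Perm.sign_swap h2]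
    rfl⟩

theorem coe_dt (e : Fin 4 ↪ Fin m) : ((dt e : ↥(alternatingGroup (Fin m))) : Perm (Fin m)) =
    swap (e 0) (e 1) * swap (e 2) (e 3) := rfl

theorem smul_emb {k : ℕ} (g : ↥(alternatingGroup (Fin m))) (e : Fin k ↪ Fin m) (i : Fin k) :
    (g • e) i = (g : Perm (Fin m)) (e i) := rfl

theorem dt_smul (g : ↥(alternatingGroup (Fin m))) (e : Fin 4 ↪ Fin m) : dt (g • e) = g * dt e * g⁻¹ := by
  apply Subtype.ext
  rw [coe_dt, smul_emb, smul_emb, smul_emb, smul_emb, Equiv.swap_apply_apply, Equiv.swap_apply_apply]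
  show _ = (g : Perm (Fin m)) * (swap (e 0) (e 1) * swap (e 2) (e 3)) * (g : Perm (Fin m))⁻¹
  group

theorem dt_sq (e : Fin 4 ↪ Fin m) : dt e ^ 2 = 1 := by
  apply Subtype.ext
  have h1 : e 0 ≠ e 2 := fun h => absurd (e.injective h) (by decide)
  have h2 : e 0 ≠ e 3 := fun h => absurd (e.injective h) (by decide)
  have h3 : e 1 ≠ e 2 := fun h => absurd (e.injective h) (by decide)
  have h4 : e 1 ≠ e 3 := fun h => absurd (e.injective h) (by decide)
  show (swap (e 0) (e 1) * swap (e 2) (e 3)) ^ 2 = 1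
  have hd : Commute (swap (e 0) (e 1)) (swap (e 2) (e 3)) := by
    apply Perm.Disjoint.commute
    intro x
    by_cases hx0 : x = e 0
    · right
      rw [hx0]
      exact swap_apply_of_ne_of_ne h1 h2
    · by_cases hx1 : x = e 1
      · right
        rw [hx1]
        exact swap_apply_of_ne_of_ne h3 h4
      · left
        exact swap_apply_of_ne_of_ne hx0 hx1
  rw [hd.mul_pow, pow_two, pow_two, swap_mul_self, swap_mul_self, one_mul]

/-- `dt e` moves `e 0` -/
theorem dt_zero (e : Fin 4 ↪ Fin m) : ((dt e : ↥(alternatingGroup (Fin m))) : Perm (Fin m)) (e 0) = e 1 := by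
  have h1 : e 0 ≠ e 2 := fun h => absurd (e.injective h) (by decide)
  have h2 : e 0 ≠ e 3 := fun h => absurd (e.injective h) (by decide)
  rw [coe_dt, Perm.mul_apply, swap_apply_of_ne_of_ne h1 h2, swap_apply_left]

/-- `dt e` fixes the other points -/
theorem dt_fix (e : Fin 4 ↪ Fin m) {x : Fin m} (hx : ∀ i, e i ≠ x) :
    ((dt e : ↥(alternatingGroup (Fin m))) : Perm (Fin m)) x = x := by
  rw [coe_dt, Perm.mul_apply, swap_apply_of_ne_of_ne (hx 2).symm (hx 3).symm,
    swap_apply_of_ne_of_ne (hx 0).symm (hx 1).symm]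

theorem pretrans (k : ℕ) (hk : k + 2 ≤ m) (e e' : Fin k ↪ Fin m) :
    ∃ g : ↥(alternatingGroup (Fin m)), g • e = e' := by
  have h1 : IsMultiplyPretransitive ↥(alternatingGroup (Fin m)) (Fin m) (Nat.card (Fin m) - 2) :=
    alternatingGroup.isMultiplyPretransitive (Fin m)
  have h2 : Nat.card (Fin m) = m := Nat.card_fin m
  have h3 : IsMultiplyPretransitive ↥(alternatingGroup (Fin m)) (Fin m) k :=
    isMultiplyPretransitive_of_le (n := Nat.card (Fin m) - 2) (by omega) (Nat.sub_le _ _)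
  exact h3.exists_smul_eq e e'

theorem trans_pt (hm : 3 ≤ m) (x y : Fin m) : ∃ g : ↥(alternatingGroup (Fin m)), (g : Perm (Fin m)) x = y := by
  obtain ⟨g, hg⟩ := pretrans 1 (by omega) (⟨fun _ => x, fun i j _ => Subsingleton.elim i j⟩ : Fin 1 ↪ Fin m)
    ⟨fun _ => y, fun i j _ => Subsingleton.elim i j⟩
  exact ⟨g, DFunLike.congr_fun hg 0⟩

/-- `dt e` is not central -/
theorem conj_dt_ne (hm : 5 ≤ m) (e : Fin 4 ↪ Fin m) : MulAut.conj (dt e) ≠ 1 := by
  intro h
  obtain ⟨x, hx⟩ : ∃ x : Fin m, ∀ i, e i ≠ x := by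
    by_contra hcon
    push Not at hcon
    have h1 : Function.Surjective e := hcon
    have h2 := Fintype.card_le_of_surjective _ h1
    rw [Fintype.card_fin, Fintype.card_fin] at h2
    omega
  obtain ⟨g, hg⟩ := trans_pt (by omega) (e 0) x
  have h1 : dt (g • e) = dt e := by
    rw [dt_smul]
    have h2 := DFunLike.congr_fun h g
    rw [MulAut.conj_apply, MulAut.one_apply] at h2
    -- dt e * g * (dt e)⁻¹ = g
    have h3 : dt e * g = g * dt e := by rwa [mul_inv_eq_iff_eq_mul] at h2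
    rw [← h3, mul_inv_cancel_right]
  have h2 := dt_zero (g • e)
  rw [h1, smul_emb, smul_emb, hg, dt_fix e hx] at h2
  have h3 : e 1 = e 0 := (g : Perm (Fin m)).injective (by rw [← h2, hg])
  exact absurd (e.injective h3) (by decide)

theorem orderOf_conj_dt (hm : 5 ≤ m) (e : Fin 4 ↪ Fin m) : orderOf (MulAut.conj (dt e)) = 2 := by
  have : Fact (Nat.Prime 2) := ⟨Nat.prime_two⟩
  exact orderOf_eq_prime (by rw [← map_pow, dt_sq, map_one]) (conj_dt_ne hm e)

section

variable {T : Type*} [Group T] [Finite T]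

theorem fixSet_conj {A : Subgroup T} {t : T} (ht : t ∈ A) : fixSet A (MulAut.conj t) = {c : T ⧸ A | t • c = c} := by
  ext c
  induction c using QuotientGroup.induction_on with
  | H y =>
    have key : ∀ z : T, z⁻¹ * MulAut.conj t z ∈ A ↔ t • (z : T ⧸ A) = (z : T ⧸ A) := by
      intro z
      rw [MulAction.Quotient.smul_coe, QuotientGroup.eq, MulAut.conj_apply, smul_eq_mul, mul_inv_rev]
      constructor
      · intro h
        have h1 := A.mul_mem h ht
        have h2 := A.inv_mem h1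
        have h3 : (z⁻¹ * (t * z * t⁻¹) * t)⁻¹ = z⁻¹ * t⁻¹ * z := by group
        rwa [h3] at h2
      · intro h
        have h1 := A.mul_mem (A.inv_mem h) (A.inv_mem ht)
        have h3 : (z⁻¹ * t⁻¹ * z)⁻¹ * t⁻¹ = z⁻¹ * (t * z * t⁻¹) := by group
        rwa [h3] at h1
    constructor
    · rintro ⟨z, hz, hzA⟩
      rw [← hz]
      exact (key z).1 hzA
    · intro h
      exact ⟨y, rfl, (key y).2 h⟩

end

/-- **Double counting.** -/
theorem count_dt (hm : 6 ≤ m) (A : Subgroup ↥(alternatingGroup (Fin m))) (S : Finset (Fin 4 ↪ Fin m))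
    (hS : ∀ e ∈ S, dt e ∈ A) {e₀ : Fin 4 ↪ Fin m} (h₀ : e₀ ∈ S) :
    A.index * S.card ≤ m.descFactorial 4 * fx A (MulAut.conj (dt e₀)) := by
  classical
  have : Fintype (↥(alternatingGroup (Fin m)) ⧸ A) := Fintype.ofFinite _
  have hF : ∀ e : Fin 4 ↪ Fin m, ((Finset.univ : Finset (↥(alternatingGroup (Fin m)) ⧸ A)).bipartiteAbove
      (fun e c => dt e • c = c) e).card = fx A (MulAut.conj (dt e₀)) := by
    intro e
    obtain ⟨g, rfl⟩ := pretrans 4 (by omega) e₀ e
    rw [fx, fixSet_conj (hS _ h₀), Set.ncard_eq_toFinset_card']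
    refine Finset.card_bij' (fun c _ => g⁻¹ • c) (fun c _ => g • c) ?_ ?_ ?_ ?_
    · intro c hc
      rw [Finset.mem_bipartiteAbove] at hc
      rw [Set.mem_toFinset]
      show dt e₀ • g⁻¹ • c = g⁻¹ • c
      have h1 := hc.2
      rw [dt_smul, mul_smul, mul_smul] at h1
      rw [eq_inv_smul_iff]
      exact h1
    · intro c hc
      rw [Set.mem_toFinset] at hc
      have h1 : dt e₀ • c = c := hc
      rw [Finset.mem_bipartiteAbove]
      refine ⟨Finset.mem_univ _, ?_⟩
      rw [dt_smul, mul_smul, mul_smul, inv_smul_smul, h1]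
    · intro c _
      exact smul_inv_smul _ _
    · intro c _
      exact inv_smul_smul _ _
  have hN : ∀ c : ↥(alternatingGroup (Fin m)) ⧸ A, S.card ≤ ((Finset.univ : Finset (Fin 4 ↪ Fin m)).bipartiteBelow
      (fun e c => dt e • c = c) c).card := by
    intro c
    induction c using QuotientGroup.induction_on with
    | H y =>
      refine Finset.card_le_card_of_injOn (fun e => y • e) ?_ ?_
      · intro e he
        rw [Finset.mem_coe, Finset.mem_bipartiteBelow]
        refine ⟨Finset.mem_univ _, ?_⟩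
        have h1 := hS e he
        rw [dt_smul, MulAction.Quotient.smul_coe, QuotientGroup.eq, smul_eq_mul]
        have h2 : (y * dt e * y⁻¹ * y)⁻¹ * y = (dt e)⁻¹ := by group
        rw [h2]
        exact A.inv_mem h1
      · intro e _ e' _ h
        exact smul_left_cancel y h
  have hsum := Finset.sum_card_bipartiteAbove_eq_sum_card_bipartiteBelow
    (s := (Finset.univ : Finset (Fin 4 ↪ Fin m))) (t := (Finset.univ : Finset (↥(alternatingGroup (Fin m)) ⧸ A)))
    (fun e c => dt e • c = c)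
  rw [Finset.sum_congr rfl (fun e _ => hF e), Finset.sum_const, Finset.card_univ, Fintype.card_embedding_eq,
    Fintype.card_fin, Fintype.card_fin, smul_eq_mul] at hsum
  rw [hsum]
  calc A.index * S.card = ∑ c : ↥(alternatingGroup (Fin m)) ⧸ A, S.card := by
        rw [Finset.sum_const, Finset.card_univ, smul_eq_mul, Subgroup.index, Nat.card_eq_fintype_card]
    _ ≤ _ := Finset.sum_le_sum fun c _ => hN c

/-- **The inequality in a counterexample.** -/
theorem key (hm : 6 ≤ m) {A : Subgroup ↥(alternatingGroup (Fin m))}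
    {Γ : Subgroup (MulAut ↥(alternatingGroup (Fin m)))} (h : IF A Γ) (S : Finset (Fin 4 ↪ Fin m))
    (hS : ∀ e ∈ S, dt e ∈ A) (hne : S.Nonempty) : A.index ^ 5 * S.card ^ 6 < m.descFactorial 4 ^ 6 := by
  obtain ⟨e₀, h₀⟩ := hne
  have h1 := count_dt hm A S hS h₀
  have h2 := h.small _ ((h.conj _).2 (hS _ h₀)) (orderOf_conj_dt (by omega) e₀)
  have h3 : 0 < A.index := by have := h.big; omega
  have h4 : 0 < m.descFactorial 4 := Nat.descFactorial_pos.2 (by omega)
  have h5 : A.index ^ 6 * S.card ^ 6 ≤ m.descFactorial 4 ^ 6 * fx A (MulAut.conj (dt e₀)) ^ 6 := by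
    rw [← mul_pow, ← mul_pow]
    exact Nat.pow_le_pow_left h1 6
  have h6 : m.descFactorial 4 ^ 6 * fx A (MulAut.conj (dt e₀)) ^ 6 < m.descFactorial 4 ^ 6 * A.index :=
    Nat.mul_lt_mul_of_pos_left h2 (pow_pos h4 6)
  have h7 : A.index * (A.index ^ 5 * S.card ^ 6) < A.index * m.descFactorial 4 ^ 6 := by
    calc A.index * (A.index ^ 5 * S.card ^ 6) = A.index ^ 6 * S.card ^ 6 := by ring
      _ < m.descFactorial 4 ^ 6 * A.index := lt_of_le_of_lt h5 h6
      _ = _ := by ring
  exact Nat.lt_of_mul_lt_mul_left h7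

/-- **Counting 6-tuples.** -/
theorem count_six (hm : 8 ≤ m) (A : Subgroup ↥(alternatingGroup (Fin m))) (S : Finset (Fin 6 ↪ Fin m))
    (hS : ∀ a ∈ A, ∀ e ∈ S, a • e ∈ S) (hne : S.Nonempty) : m.descFactorial 6 ≤ A.index * S.card := by
  classical
  have : Fintype (↥(alternatingGroup (Fin m)) ⧸ A) := Fintype.ofFinite _
  have h1 : Fintype.card (Fin 6 ↪ Fin m) ≤ Fintype.card ((↥(alternatingGroup (Fin m)) ⧸ A) × S) := by
    refine Fintype.card_le_of_surjective (fun x => x.1.out • (x.2 : Fin 6 ↪ Fin m)) ?_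
    intro e'
    obtain ⟨e, he⟩ := hne
    obtain ⟨g, hg⟩ := pretrans 6 (by omega) e e'
    obtain ⟨a, ha⟩ : ∃ a : ↥A, ((g : ↥(alternatingGroup (Fin m)) ⧸ A)).out = g * a := by
      have h2 : ((g : ↥(alternatingGroup (Fin m)) ⧸ A).out : ↥(alternatingGroup (Fin m)) ⧸ A) =
          (g : ↥(alternatingGroup (Fin m)) ⧸ A) := QuotientGroup.out_eq' _
      rw [eq_comm, QuotientGroup.eq] at h2
      exact ⟨⟨_, h2⟩, by rw [mul_inv_cancel_left]⟩
    refine ⟨((g : ↥(alternatingGroup (Fin m)) ⧸ A), ⟨(a : ↥(alternatingGroup (Fin m)))⁻¹ • e,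
      hS _ (A.inv_mem a.2) e he⟩), ?_⟩
    show (g : ↥(alternatingGroup (Fin m)) ⧸ A).out • ((a : ↥(alternatingGroup (Fin m)))⁻¹ • e) = e'
    rw [ha]
    calc (g * (a : ↥(alternatingGroup (Fin m)))) • ((a : ↥(alternatingGroup (Fin m)))⁻¹ • e)
        = g • ((a : ↥(alternatingGroup (Fin m))) • ((a : ↥(alternatingGroup (Fin m)))⁻¹ • e)) := mul_smul _ _ _
      _ = g • e := congrArg (g • ·) (smul_inv_smul _ _)
      _ = e' := hg
  rw [Fintype.card_embedding_eq, Fintype.card_fin, Fintype.card_fin, Fintype.card_prod, Fintype.card_coe] at h1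
  rwa [Subgroup.index, Nat.card_eq_fintype_card]

end Cfsg.Agent.H804.IF
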