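import Cfsg.Agent.H209.IF.Kill
import Cfsg.Agent.H74.SpF
import Cfsg.Agent.H74.SpN

/-!
# S5719, the cell `PSp_4(q)`, `q` odd: setting (helper804, helper172)

`Ctx π` : `π : Sp B →* T` is onto with kernel `{1, -1}`, `B` alternating nondegenerate on a space of order `q ^ 4`,
`q` odd.
-/

set_option autoImplicit false
set_option linter.unusedSectionVars false

namespace Cfsg.Agent.H804.P4

open Subgroup Cfsg.Agent.H74.Psp Cfsg.Agent.H209.Fxy

/-- The setting. -/
structure Ctx {F V T : Type*} [Field F] [AddCommGroup V] [Module F V] [Group T] {B : V →ₗ[F] V →ₗ[F] F}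
    (π : Sp B →* T) : Prop where
  hB : Symp B
  hV : Nat.card V = Nat.card F ^ 4
  h2 : (2 : F) ≠ 0
  surj : Function.Surjective π
  neg : π (negOne B) = 1
  ker : ∀ g : Sp B, π g = 1 → g = 1 ∨ g = negOne B
  card : Nat.card (Sp B) = Nat.card F ^ 4 * ((Nat.card F ^ 2 - 1) * (Nat.card F ^ 4 - 1))

/-- The case `A` contains an involution of type `t₁`. -/
def CaseA : Prop := ∀ {F V T : Type} [Field F] [Finite F] [AddCommGroup V] [Module F V] [Finite V] [Group T] [Finite T]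
  [IsSimpleGroup T] {B : V →ₗ[F] V →ₗ[F] F} {π : Sp B →* T} (_ : Ctx π) {A : Subgroup T} {Γ : Subgroup (MulAut T)}
  (_ : IF A Γ) (v v' : V) (_ : B v v' = 1) (_ : π (inv2 B v v') ∈ A), False

/-- Rank one: no involution of type `t₁` in `A`, two commuting involutions of `A` are equal. -/
def CaseB1 : Prop := ∀ {F V T : Type} [Field F] [Finite F] [AddCommGroup V] [Module F V] [Finite V] [Group T] [Finite T]
  [IsSimpleGroup T] {B : V →ₗ[F] V →ₗ[F] F} {π : Sp B →* T} (_ : Ctx π) {A : Subgroup T} {Γ : Subgroup (MulAut T)}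
  (_ : IF A Γ) (_ : ∀ v v' : V, B v v' = 1 → π (inv2 B v v') ∉ A)
  (_ : ∀ s ∈ A, ∀ t ∈ A, orderOf s = 2 → orderOf t = 2 → s * t = t * s → s = t) (t : T) (_ : t ∈ A)
  (_ : orderOf t = 2), False

/-- Rank at least two. -/
def CaseB2 : Prop := ∀ {F V T : Type} [Field F] [Finite F] [AddCommGroup V] [Module F V] [Finite V] [Group T] [Finite T]
  [IsSimpleGroup T] {B : V →ₗ[F] V →ₗ[F] F} {π : Sp B →* T} (_ : Ctx π) {A : Subgroup T} {Γ : Subgroup (MulAut T)}
  (_ : IF A Γ) (_ : ∀ v v' : V, B v v' = 1 → π (inv2 B v v') ∉ A) (s t : T) (_ : s ∈ A) (_ : t ∈ A)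
  (_ : orderOf s = 2) (_ : orderOf t = 2) (_ : s * t = t * s) (_ : s ≠ t), False

end Cfsg.Agent.H804.P4
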