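import Cfsg.Agent.H804.IF.P4
import Cfsg.Agent.S0245
import Cfsg.Agent.H999.IF.EngB

/-!
# S5719, `PSp_4(q)`, `q` odd: the concrete projection (helper804)
-/

set_option autoImplicit false
set_option linter.unusedSectionVars false

namespace Cfsg.Agent.H804.P4

open Subgroup Cfsg Cfsg.Agent.H74.Psp Cfsg.Agent.H209.Fxy Cfsg.Agent.ClassicalGeometry.SympBasic

/-- `Sp B ≃ symplecticGroup` -/
noncomputable def e0 (F : Type*) [Field F] : Matrix.symplecticGroup (Fin 2) F ≃* Sp (sympBilin 2 F) :=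
  MulEquiv.ofBijective (toSp 2) (toSp_bijective 2)

/-- the projection `Sp_4(F) → PSp_4(F)` -/
noncomputable def pi0 (F : Type*) [Field F] : Sp (sympBilin 2 F) →* PSp 2 F :=
  (QuotientGroup.mk' (Subgroup.center (Matrix.symplecticGroup (Fin 2) F))).comp (e0 F).symm.toMonoidHom

theorem center_sp {F : Type*} [Field F] {z : Sp (sympBilin 2 F)} (hz : ∀ g, z * g = g * z) :
    z = 1 ∨ z = negOne (sympBilin 2 F) := by
  have hB : Symp (sympBilin 2 F) := symp_sympBilin 2
  have hl : ∀ w : Fin 2 ⊕ Fin 2 → F, w ≠ 0 → ∃ a : F, z • w = a • w := fun w hw => by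
    obtain ⟨a, -, ha⟩ := center_line hB hw hz
    exact ⟨a, ha⟩
  obtain ⟨x, hx⟩ := exists_ne (0 : Fin 2 ⊕ Fin 2 → F)
  obtain ⟨a, ha⟩ := hl x hx
  have hall : ∀ w : Fin 2 ⊕ Fin 2 → F, z • w = a • w := by
    intro w
    by_cases hw : w = 0
    · rw [hw, smul_zero, smul_zero]
    obtain ⟨b, hb⟩ := hl w hw
    by_cases hab : a = b
    · rw [hab, hb]
    by_cases hxw : x + w = 0
    · have h1 : w = (-1 : F) • x := by rw [neg_one_smul]; exact eq_neg_of_add_eq_zero_right hxw
      rw [h1, smul_fsmul, ha, smul_comm]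
    obtain ⟨c, hc⟩ := hl _ hxw
    rw [smul_add', ha, hb, smul_add] at hc
    -- `(a - c) x = (c - b) w`
    have h1 : (a - c) • x = (c - b) • w := by
      have : (a - c) • x - (c - b) • w = (a • x + b • w) - (c • x + c • w) := by module
      rw [← sub_eq_zero, this, hc, sub_self]
    by_cases hac : a = c
    · have h2 : (c - b) • w = 0 := by rw [← h1, hac, sub_self, zero_smul]
      rcases smul_eq_zero.1 h2 with h3 | h3
      · exact absurd (hac.trans (sub_eq_zero.1 h3)) hab
      · exact absurd h3 hw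
    · have h2 : x = ((a - c)⁻¹ * (c - b)) • w := by
        rw [mul_smul, ← h1, smul_smul, inv_mul_cancel₀ (sub_ne_zero.2 hac), one_smul]
      exfalso
      have h3 : z • x = b • x := by
        rw [h2, smul_fsmul, hb, smul_comm]
      rw [ha] at h3
      exact hab (smul_left_injective F hx h3)
  obtain ⟨y, hy⟩ := sep0 hB hx
  have h1 := B_smul_smul z x y
  rw [hall x, hall y, LinearMap.map_smul, LinearMap.map_smul, LinearMap.smul_apply, hy] at h1
  simp only [smul_eq_mul, mul_one] at h1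
  have h2 : (a - 1) * (a + 1) = 0 := by linear_combination h1
  rcases mul_eq_zero.1 h2 with h3 | h3
  · left
    apply Sp.ext'
    intro w
    rw [hall, sub_eq_zero.1 h3, one_smul, one_smul]
  · right
    apply Sp.ext'
    intro w
    rw [hall, eq_neg_of_add_eq_zero_left h3, negOne_smul, neg_one_smul]

/-- **The setting is that of `PSp_4(q)`.** -/
theorem ctx0 (F : Type*) [Field F] [Finite F] (h2 : (2 : F) ≠ 0) : Ctx (pi0 F) where
  hB := symp_sympBilin 2
  hV := by
    rw [Nat.card_fun, Nat.card_eq_fintype_card (α := Fin 2 ⊕ Fin 2), Fintype.card_sum, Fintype.card_fin]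
  h2 := h2
  surj := by
    intro x
    obtain ⟨y, rfl⟩ := QuotientGroup.mk'_surjective _ x
    exact ⟨e0 F y, by rw [pi0, MonoidHom.comp_apply]; simp⟩
  neg := by
    rw [pi0, MonoidHom.comp_apply, QuotientGroup.mk'_apply, QuotientGroup.eq_one_iff, Subgroup.mem_center_iff]
    intro g
    apply (e0 F).injective
    rw [map_mul, map_mul]
    have h1 : e0 F ((e0 F).symm.toMonoidHom (negOne (sympBilin 2 F))) = negOne (sympBilin 2 F) :=
      (e0 F).apply_symm_apply _
    rw [h1]
    apply Sp.ext'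
    intro x
    rw [mul_smul, mul_smul, negOne_smul, negOne_smul]
    exact map_neg ((e0 F g : Sp (sympBilin 2 F)) : (Fin 2 ⊕ Fin 2 → F) ≃ₗ[F] (Fin 2 ⊕ Fin 2 → F)) x
  ker := by
    intro g hg
    rw [pi0, MonoidHom.comp_apply, QuotientGroup.mk'_apply, QuotientGroup.eq_one_iff, Subgroup.mem_center_iff] at hg
    apply center_sp
    intro k
    have h1 := hg ((e0 F).symm k)
    have h2 : (e0 F).symm k * (e0 F).symm g = (e0 F).symm g * (e0 F).symm k := h1
    rw [← map_mul, ← map_mul] at h2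
    exact ((e0 F).symm.injective h2).symm
  card := by
    have := Fintype.ofFinite F
    rw [← Nat.card_congr (e0 F).toEquiv, Cfsg.Agent.S0245.result (F := F) (q := Nat.card F)
      (by rw [Nat.card_eq_fintype_card]) 2, Finset.prod_range_succ, Finset.prod_range_succ, Finset.prod_range_zero]
    norm_num

/-- **Assembly.** (rank one and rank two only for this field) -/
theorem killE_of (hA : CaseA) (F : Type) [Field F] [Finite F] (h2 : (2 : F) ≠ 0)
    (hB1 : ∀ (A : Subgroup (PSp 2 F)) (Γ : Subgroup (MulAut (PSp 2 F))), IF A Γ →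
      (∀ v v' : Fin 2 ⊕ Fin 2 → F, (sympBilin 2 F) v v' = 1 → pi0 F (inv2 (sympBilin 2 F) v v') ∉ A) →
      (∀ s ∈ A, ∀ t ∈ A, orderOf s = 2 → orderOf t = 2 → s * t = t * s → s = t) → ∀ t ∈ A, orderOf t = 2 → False)
    (hB2 : CaseB2) (hs : IsSimpleGroup (PSp 2 F)) : KillE (PSp 2 F) := by
  have : Finite (PSp 2 F) := Quotient.finite _
  intro A Γ h hex
  obtain ⟨t, ht, ho⟩ := hex
  have C := ctx0 F h2
  by_cases hno : ∀ v v' : Fin 2 ⊕ Fin 2 → F, (sympBilin 2 F) v v' = 1 → pi0 F (inv2 (sympBilin 2 F) v v') ∉ A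
  · by_cases hr : ∀ s ∈ A, ∀ t ∈ A, orderOf s = 2 → orderOf t = 2 → s * t = t * s → s = t
    · exact hB1 A Γ h hno hr t ht ho
    · push Not at hr
      obtain ⟨s, hs', t', ht', ho1, ho2, hc, hne⟩ := hr
      exact hB2 C h hno s t' hs' ht' ho1 ho2 hc hne
  · push Not at hno
    obtain ⟨v, v', hv, hm⟩ := hno
    exact hA C h v v' hv hm

end Cfsg.Agent.H804.P4
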