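import Cfsg.Agent.H804.IF.P4
import Cfsg.Agent.H74.SpJ

/-!
# S5719, `PSp_4(q)`, `q` odd: the involutions (helper804)

* `Ctx.inv_type` : an involution of `T` is the image of an `inv2 B v v'` or of a `j` with `j * j = -1`;
* `anti` : `i² = j² = (i j)² = -1` imply `i j = - j i`;
* `exists_pair` : `j² = -1`: there is a hyperbolic pair `v, v'` such that `j v, j v'` is orthogonal to it.
-/

set_option autoImplicit false
set_option linter.unusedSectionVars false

namespace Cfsg.Agent.H804.P4

open Subgroup Module Cfsg.Agent.H74.Psp Cfsg.Agent.H209.Fxy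

section

variable {F V : Type*} [Field F] [AddCommGroup V] [Module F V] {B : V →ₗ[F] V →ₗ[F] F}

theorem smul_neg' (g : Sp B) (x : V) : g • (-x) = -(g • x) := map_neg (g : V ≃ₗ[F] V) x

theorem smul_sub' (g : Sp B) (x y : V) : g • (x - y) = g • x - g • y := map_sub (g : V ≃ₗ[F] V) x y

theorem sq_iff {j : Sp B} : j * j = negOne B ↔ ∀ x : V, j • j • x = -x := by
  constructor
  · intro h x
    rw [← mul_smul, h, negOne_smul]
  · intro h
    apply Sp.ext'
    intro x
    rw [mul_smul, h, negOne_smul]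

theorem negOne_mul_self : negOne B * negOne B = 1 := by
  apply Sp.ext'
  intro x
  rw [mul_smul, negOne_smul, negOne_smul, neg_neg, one_smul]

theorem negOne_comm (g : Sp B) : negOne B * g = g * negOne B := by
  apply Sp.ext'
  intro x
  rw [mul_smul, mul_smul, negOne_smul, negOne_smul, smul_neg']

theorem anti {i j : Sp B} (hi : i * i = negOne B) (hj : j * j = negOne B) (hij : (i * j) * (i * j) = negOne B)
    (x : V) : i • j • x = -(j • i • x) := by
  rw [sq_iff] at hi hj hij
  have h1 := hij (j • x)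
  simp only [mul_smul, hj, smul_neg'] at h1
  -- i j i (-x) = - j x
  have h2 : i • j • i • x = j • x := by
    have := congrArg Neg.neg h1
    simpa using this
  rw [← h2, hi]

/-- `B x (j y)` is symmetric -/
theorem sym (hB : Symp B) {j : Sp B} (hj : j * j = negOne B) (x y : V) : B x (j • y) = B y (j • x) := by
  rw [← B_smul_smul j x (j • y), sq_iff.1 hj, map_neg, skew hB (j • x) y, neg_neg]

theorem exists_noniso (hB : Symp B) (h2 : (2 : F) ≠ 0) {j : Sp B} (hj : j * j = negOne B) (W : Set V)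
    (hadd : ∀ x ∈ W, ∀ y ∈ W, x + y ∈ W) {x y : V} (hx : x ∈ W) (hy : y ∈ W) (hxy : B x (j • y) ≠ 0) :
    ∃ z ∈ W, B z (j • z) ≠ 0 := by
  by_contra! hcon
  have h1 := hcon _ (hadd _ hx _ hy)
  rw [smul_add', map_add, map_add, LinearMap.add_apply, LinearMap.add_apply, hcon x hx, hcon y hy, zero_add,
    add_zero, sym hB hj y x, ← two_mul] at h1
  exact (mul_ne_zero h2 hxy) h1

end

section

variable {F V : Type*} [Field F] [Finite F] [AddCommGroup V] [Module F V] [Finite V] {B : V →ₗ[F] V →ₗ[F] F}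

/-- sums of two squares in a finite field of odd order -/
theorem exists_two_sq (h2 : (2 : F) ≠ 0) (c : F) : ∃ a b : F, a ^ 2 + b ^ 2 = c := by
  classical
  have := Fintype.ofFinite F
  have hodd : Fintype.card F % 2 = 1 := by
    rcases Nat.mod_two_eq_zero_or_one (Fintype.card F) with h | h
    · exfalso
      apply h2
      have h3 : ringChar F = 2 := by
        rwa [FiniteField.even_card_iff_char_two.symm] at h
      have := ringChar.Nat.cast_ringChar (R := F)
      rw [h3] at this
      exact_mod_cast this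
    · exact h
  obtain ⟨a, b, hab⟩ := FiniteField.exists_root_sum_quadratic (R := F) (f := Polynomial.X ^ 2)
    (g := Polynomial.X ^ 2 - Polynomial.C c) (by rw [Polynomial.degree_X_pow]; rfl)
    (by rw [Polynomial.degree_X_pow_sub_C (by norm_num)]; rfl) hodd
  refine ⟨a, b, ?_⟩
  simp only [Polynomial.eval_pow, Polynomial.eval_X, Polynomial.eval_sub, Polynomial.eval_C] at hab
  linear_combination hab

variable (hB : Symp B) (h2 : (2 : F) ≠ 0)
include hB h2

/-- an adapted hyperbolic pair -/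
theorem exists_pair (hV : Nat.card V = Nat.card F ^ 4) {j : Sp B} (hj : j * j = negOne B) :
    ∃ v v' : V, B v v' = 1 ∧ B v (j • v) = 0 ∧ B v (j • v') = 0 ∧ B v' (j • v') = 0 := by
  have hjj := sq_iff.1 hj
  -- a vector `x` with `B x (j x) ≠ 0`
  have hnt : Nontrivial V := by
    rw [← Finite.one_lt_card_iff_nontrivial, hV]
    exact Nat.one_lt_pow (by norm_num) Finite.one_lt_card
  obtain ⟨x0, hx0⟩ := exists_ne (0 : V)
  obtain ⟨x, hx⟩ : ∃ x : V, B x (j • x) ≠ 0 := by
    obtain ⟨y, hy⟩ := sep0 hB hx0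
    obtain ⟨z, -, hz⟩ := exists_noniso hB h2 hj Set.univ (fun _ _ _ _ => trivial) (x := x0) (y := -(j • y)) trivial trivial
      (by rw [smul_neg', hjj, neg_neg, hy]; exact one_ne_zero)
    exact ⟨z, hz⟩
  set α := B x (j • x) with hα
  have hxx : B x (α⁻¹ • (j • x)) = 1 := by rw [map_smul, smul_eq_mul, ← hα, inv_mul_cancel₀ hx]
  -- a vector `y` orthogonal to `x`, `j x`
  obtain ⟨y0, hy0⟩ : ∃ y0 : V, ∀ a b : F, y0 ≠ a • x + b • (j • x) := by
    by_contra! hcon
    have hs : Function.Surjective (fun p : F × F => p.1 • x + p.2 • (j • x)) := by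
      intro z
      obtain ⟨a, b, hab⟩ := hcon z
      exact ⟨(a, b), hab.symm⟩
    have h3 := Nat.card_le_card_of_surjective _ hs
    rw [hV, Nat.card_prod, ← pow_two] at h3
    have h4 : Nat.card F ^ 2 < Nat.card F ^ 4 := Nat.pow_lt_pow_right Finite.one_lt_card (by norm_num)
    omega
  obtain ⟨y1, a1, b1, hy1, hy2, hy3⟩ := decompV hB hxx y0
  have hy1' : y1 ≠ 0 := by
    rintro rfl
    apply hy0 a1 (b1 * α⁻¹)
    rw [hy1, zero_add, smul_smul]
  have hperp : ∀ z : V, B x z = 0 → B (j • x) z = 0 → B x (j • z) = 0 ∧ B (j • x) (j • z) = 0 := by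
    intro z h3 h4
    refine ⟨?_, by rw [B_smul_smul, h3]⟩
    rw [sym hB hj, skew hB, h4, neg_zero]
  have hy3' : B (j • x) y1 = 0 := by
    have h3 : α⁻¹ * B (j • x) y1 = 0 := by
      rw [← smul_eq_mul, ← LinearMap.smul_apply, ← map_smul]
      exact hy3
    rcases mul_eq_zero.1 h3 with h4 | h4
    · exact absurd h4 (inv_ne_zero hx)
    · exact h4
  obtain ⟨w0, hw0⟩ := sep0 hB hy1'
  obtain ⟨w1, a2, b2, hw1, hw2, hw3⟩ := decompV hB hxx w0
  have hw3' : B (j • x) w1 = 0 := by
    have h3 : α⁻¹ * B (j • x) w1 = 0 := by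
      rw [← smul_eq_mul, ← LinearMap.smul_apply, ← map_smul]
      exact hw3
    rcases mul_eq_zero.1 h3 with h4 | h4
    · exact absurd h4 (inv_ne_zero hx)
    · exact h4
  have hyw : B y1 w1 = 1 := by
    rw [hw1] at hw0
    rw [map_add, map_add, map_smul, map_smul, orth_symm hB hy2, orth_symm hB hy3, smul_zero, smul_zero, add_zero,
      add_zero] at hw0
    exact hw0
  obtain ⟨y, ⟨hyx, hyjx⟩, hy⟩ := exists_noniso hB h2 hj {z : V | B x z = 0 ∧ B (j • x) z = 0}
    (fun a ha b hb => ⟨by rw [map_add, ha.1, hb.1, add_zero], by rw [map_add, ha.2, hb.2, add_zero]⟩)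
    (x := y1) (y := -(j • w1)) ⟨hy2, hy3'⟩
    ⟨by rw [map_neg, (hperp w1 hw2 hw3').1, neg_zero], by rw [map_neg, (hperp w1 hw2 hw3').2, neg_zero]⟩
    (by rw [smul_neg', hjj, neg_neg, hyw]; exact one_ne_zero)
  obtain ⟨a, b, hab⟩ := exists_two_sq h2 (-(B y (j • y)) * α⁻¹)
  obtain ⟨hyjy, hyjy'⟩ := hperp y hyx hyjx
  set v : V := a • x + b • (j • x) + y with hv
  have hjv : j • v = a • (j • x) - b • x + j • y := by
    rw [hv, smul_add', smul_add', smul_fsmul, smul_fsmul, hjj, smul_neg]
    abel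
  have e1 : B (j • x) x = -α := by rw [skew hB]
  have hvv : B v (j • v) = 0 := by
    rw [hjv, hv]
    simp only [map_add, map_sub, map_smul, LinearMap.add_apply, LinearMap.smul_apply, smul_eq_mul, hB.alt,
      hyjy, hyjy', orth_symm hB hyx, orth_symm hB hyjx, e1, ← hα]
    have h3 : (a ^ 2 + b ^ 2) * α = -(B y (j • y)) := by
      rw [hab, mul_assoc, inv_mul_cancel₀ hx, mul_one]
    linear_combination h3
  have hind : ∀ c : F, j • v ≠ c • v := by
    intro c hc
    have h3 : B y (j • v) = B y (j • y) := by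
      rw [hjv]
      simp only [map_add, map_sub, map_smul, smul_eq_mul, orth_symm hB hyx, orth_symm hB hyjx]
      ring
    have h4 : B y (c • v) = 0 := by
      rw [hv]
      simp only [map_add, map_smul, smul_eq_mul, orth_symm hB hyx, orth_symm hB hyjx, hB.alt]
      ring
    rw [hc, h4] at h3
    exact hy h3.symm
  have hv0 : v ≠ 0 := by
    intro h0
    apply hind 0
    rw [h0, smul_zero, smul_zero]
  have hind' : ∀ c : F, v ≠ c • (j • v) := by
    intro c hc
    apply hind (-c)
    have h3 := congrArg (fun z => j • z) hc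
    simp only [smul_fsmul, hjj, smul_neg] at h3
    rw [h3, neg_smul]
  clear_value v
  obtain ⟨v1, h3, h4⟩ := sep1 hB hind'
  -- `B (j v) v1 = 0`, `B v v1 = 1`
  set c : F := -(B v1 (j • v1)) * (2 : F)⁻¹ with hc
  have e2 : B v (j • v1) = 0 := by rw [sym hB hj, skew hB, h3, neg_zero]
  have e3 : B (j • v) (j • v1) = 1 := by rw [B_smul_smul, h4]
  have e4 : B v1 v = -1 := by rw [skew hB, h4]
  have e5 : B (j • v) v = 0 := orth_symm hB hvv
  refine ⟨v, v1 + c • (j • v), ?_, hvv, ?_, ?_⟩
  · rw [map_add, map_smul, hvv, h4, smul_zero, add_zero]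
  · rw [smul_add', smul_fsmul, hjj]
    simp only [map_add, LinearMap.map_smul, map_neg, smul_neg, hB.alt, e2, smul_zero, neg_zero, add_zero]
  · rw [smul_add', smul_fsmul, hjj]
    simp only [map_add, map_smul, map_neg, LinearMap.add_apply, LinearMap.smul_apply, smul_eq_mul, e3, e4, e5]
    rw [hc]
    field_simp
    ring

end

section

variable {F V T : Type*} [Field F] [Finite F] [AddCommGroup V] [Module F V] [Finite V] [Group T]
  {B : V →ₗ[F] V →ₗ[F] F} {π : Sp B →* T}

/-- involutions of `Sp B` -/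
theorem exists_inv2 (hB : Symp B) (h2 : (2 : F) ≠ 0) (hV : Nat.card V = Nat.card F ^ 4) {g : Sp B} (hg : g * g = 1)
    (h1 : g ≠ 1) (hn : g ≠ negOne B) : ∃ v v' : V, B v v' = 1 ∧ inv2 B v v' = g := by
  have hgg : ∀ x : V, g • g • x = x := fun x => by rw [← mul_smul, hg, one_smul]
  obtain ⟨x, hx⟩ : ∃ x : V, g • x ≠ x := by
    by_contra! hcon
    exact h1 (Sp.ext' fun x => by rw [hcon, one_smul])
  obtain ⟨y, hy⟩ : ∃ y : V, g • y ≠ -y := by
    by_contra! hcon
    exact hn (Sp.ext' fun x => by rw [hcon, negOne_smul])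
  set u : V := x - g • x with hu
  have hu0 : u ≠ 0 := fun h => hx (sub_eq_zero.1 h).symm
  have hgu : g • u = -u := by rw [hu, smul_sub', hgg]; abel
  set v : V := y + g • y with hv
  have hv0 : v ≠ 0 := fun h => hy (eq_neg_of_add_eq_zero_right h)
  have hgv : g • v = v := by rw [hv, smul_add', hgg]; abel
  obtain ⟨v0, hv0'⟩ := sep0 hB hv0
  obtain ⟨u0, hu0'⟩ := sep0 hB hu0
  set v' : V := (2 : F)⁻¹ • (v0 + g • v0) with hv'
  set u' : V := (2 : F)⁻¹ • (u0 - g • u0) with hu'
  have hgv' : g • v' = v' := by rw [hv', smul_fsmul, smul_add', hgg, add_comm]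
  have hgu' : g • u' = -u' := by
    rw [hu', smul_fsmul, smul_sub', hgg, ← smul_neg, neg_sub]
  have hvv : B v v' = 1 := by
    have h3 : B v (g • v0) = 1 := by
      nth_rw 1 [← hgv]
      rw [B_smul_smul, hv0']
    rw [hv', map_smul, map_add, h3, hv0', smul_eq_mul]
    field_simp
    norm_num
  have huu : B u u' = 1 := by
    have h3 : B u (g • u0) = -1 := by
      have h4 : u = g • (-u) := by rw [smul_neg', hgu, neg_neg]
      rw [h4, B_smul_smul, map_neg, LinearMap.neg_apply, hu0']
    rw [hu', map_smul, map_sub, h3, hu0', smul_eq_mul]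
    field_simp
    norm_num
  have hort : ∀ a b : V, g • a = a → g • b = -b → B a b = 0 := by
    intro a b ha hb
    have h3 := B_smul_smul g a b
    rw [ha, hb, map_neg] at h3
    have h4 : (2 : F) * B a b = 0 := by linear_combination -h3
    exact (mul_eq_zero.1 h4).resolve_left h2
  have h3 := hort v u hgv hgu
  have h4 := hort v u' hgv hgu'
  have h5 := hort v' u hgv' hgu
  have h6 := hort v' u' hgv' hgu'
  clear_value v' u'
  clear_value u v
  refine ⟨v, v', hvv, ?_⟩
  apply Sp.ext'
  intro z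
  obtain ⟨a, b, c, d, rfl⟩ := four hB hV hvv huu h3 h4 h5 h6 z
  have e1 : inv2 B v v' • v' = v' := by
    rw [inv2_smul hB hvv, hB.alt, skew hB v' v, hvv]
    module
  simp only [smul_add', smul_fsmul, inv2_v hB hvv, e1, inv2_orth hB hvv h3 h5, inv2_orth hB hvv h4 h6, hgv, hgv', hgu,
    hgu']

/-- **The involutions of `T`.** -/
theorem Ctx.inv_type (C : Ctx π) {t : T} (ht : orderOf t = 2) :
    (∃ v v' : V, B v v' = 1 ∧ π (inv2 B v v') = t) ∨ ∃ j : Sp B, j * j = negOne B ∧ π j = t := by
  obtain ⟨g, rfl⟩ := C.surj t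
  have h1 : π (g * g) = 1 := by rw [map_mul, ← pow_two, ← ht, pow_orderOf_eq_one]
  have h2 : π g ≠ 1 := by
    intro h
    rw [h, orderOf_one] at ht
    omega
  rcases C.ker _ h1 with h3 | h3
  · left
    obtain ⟨v, v', h4, h5⟩ := exists_inv2 C.hB C.h2 C.hV h3 (fun h => h2 (by rw [h, map_one]))
      (fun h => h2 (by rw [h, C.neg]))
    exact ⟨v, v', h4, by rw [h5]⟩
  · right
    exact ⟨g, h3, rfl⟩

theorem Ctx.eq_iff (C : Ctx π) {g h : Sp B} : π g = π h ↔ g = h ∨ g = negOne B * h := by
  constructor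
  · intro he
    have h1 : π (g * h⁻¹) = 1 := by rw [map_mul, he, ← map_mul, mul_inv_cancel, map_one]
    rcases C.ker _ h1 with h2 | h2
    · exact Or.inl (mul_inv_eq_one.1 h2)
    · exact Or.inr (mul_inv_eq_iff_eq_mul.1 h2)
  · rintro (rfl | rfl)
    · rfl
    · rw [map_mul, C.neg, one_mul]

theorem Ctx.negOne_ne (C : Ctx π) : negOne B ≠ 1 := by
  intro h
  have hnt : Nontrivial V := by
    rw [← Finite.one_lt_card_iff_nontrivial, C.hV]
    exact Nat.one_lt_pow (by norm_num) Finite.one_lt_card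
  obtain ⟨x, hx⟩ := exists_ne (0 : V)
  have h1 := congrArg (fun g : Sp B => g • x) h
  simp only [negOne_smul, one_smul] at h1
  have h3 : (2 : F) • x = 0 := by
    rw [two_smul F x]
    exact add_eq_zero_iff_eq_neg.2 h1.symm
  exact (smul_ne_zero C.h2 hx) h3

/-- the image of `j`, `j² = -1`, is an involution -/
theorem Ctx.orderOf_j (C : Ctx π) {j : Sp B} (hj : j * j = negOne B) : orderOf (π j) = 2 := by
  apply orderOf_eq_prime
  · rw [pow_two, ← map_mul, hj, C.neg]
  · intro h
    rcases C.ker _ h with rfl | rfl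
    · rw [mul_one] at hj
      exact C.negOne_ne hj.symm
    · rw [negOne_mul_self] at hj
      exact C.negOne_ne hj.symm

/-- Commuting involutions `s ≠ t` of type `t₂` with product of type `t₂`: anticommuting lifts. -/
theorem Ctx.anti_lifts (C : Ctx π) {i j : Sp B} (hi : i * i = negOne B) (hj : j * j = negOne B)
    (hne : π i ≠ π j) (hc : π i * π j = π j * π i)
    (hno : ∀ v v' : V, B v v' = 1 → π (inv2 B v v') ≠ π i * π j) : ∀ x : V, i • j • x = -(j • i • x) := by
  apply anti hi hj
  have h1 : orderOf (π i * π j) = 2 := by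
    apply orderOf_eq_prime
    · rw [pow_two]
      calc π i * π j * (π i * π j) = π i * (π j * π i) * π j := by group
        _ = (π i * π i) * (π j * π j) := by rw [← hc]; group
        _ = 1 := by rw [← map_mul, ← map_mul, hi, hj, C.neg, mul_one]
    · intro h
      apply hne
      have h2 : π j * π j = 1 := by rw [← map_mul, hj, C.neg]
      calc π i = π i * (π j * π j) := by rw [h2, mul_one]
        _ = (π i * π j) * π j := by group
        _ = π j := by rw [h, one_mul]
  rcases C.inv_type h1 with ⟨v, v', h2, h3⟩ | ⟨k, hk, h3⟩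
  · exact absurd h3 (hno v v' h2)
  · rw [← map_mul] at h3
    rcases C.eq_iff.1 h3 with rfl | rfl
    · exact hk
    · calc i * j * (i * j) = (negOne B * (i * j)) * (negOne B * (i * j)) := by
            rw [negOne_comm (i * j), mul_assoc (i * j), ← mul_assoc (negOne B) (i * j), negOne_comm (i * j),
              mul_assoc (i * j), negOne_mul_self, mul_one]
        _ = _ := hk

end

end Cfsg.Agent.H804.P4
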