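import Cfsg.Agent.ClassicalGeometry.MinIndexFinal
import Cfsg.Agent.TwoFusion.SLTwoFacts
import Cfsg.Agent.H554.Base

/-!
# S5719, `PSp_4(q)`, `q` odd: two facts on subgroups of `SL₂(q)` (helper804)

* `odd_index` : `-1 ∈ M ≤ SL₂(q)` without elements of square `-1` has index at least `q + 1`;
* `sl_top` : `-1 ∈ M`, `|SL₂(q) : M|⁵ < q²(q²+1)` implies `M = SL₂(q)`.
-/

set_option autoImplicit false
set_option linter.unusedSectionVars false

namespace Cfsg.Agent.H804.P4

open Matrix OnePoint
open Cfsg.Agent.ClassicalGeometry.SL2Line Cfsg.Agent.ClassicalGeometry.SL2Borel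
open Cfsg.Agent.ClassicalGeometry.SL2Outer Cfsg.Agent.ClassicalGeometry.MinIndexPSL2
open Cfsg.Agent.ClassicalGeometry.MinIndexMain

section

variable {F : Type*} [Field F]

theorem sl_sq_eq_one (h2 : (2 : F) ≠ 0) {m : SpecialLinearGroup (Fin 2) F} (h : m * m = 1) : m = 1 ∨ m = -1 := by
  have h00 := congrArg (fun g : SpecialLinearGroup (Fin 2) F => g 0 0) h
  have h01 := congrArg (fun g : SpecialLinearGroup (Fin 2) F => g 0 1) h
  have h10 := congrArg (fun g : SpecialLinearGroup (Fin 2) F => g 1 0) h
  have h11 := congrArg (fun g : SpecialLinearGroup (Fin 2) F => g 1 1) h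
  simp only [sl_mul_apply, sl_one_apply] at h00 h01 h10 h11
  norm_num at h00 h01 h10 h11
  have hd := det_eq m
  have ha : m 0 0 * (m 0 0 + m 1 1) = 2 := by linear_combination h00 + hd
  have ht : m 0 0 + m 1 1 ≠ 0 := fun h0 => by
    rw [h0, mul_zero] at ha
    exact h2 ha.symm
  have hb : m 0 1 = 0 := by
    have : m 0 1 * (m 0 0 + m 1 1) = 0 := by linear_combination h01
    exact (mul_eq_zero.1 this).resolve_right ht
  have hc : m 1 0 = 0 := by
    have : m 1 0 * (m 0 0 + m 1 1) = 0 := by linear_combination h10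
    exact (mul_eq_zero.1 this).resolve_right ht
  have h1 : m 0 0 * m 0 0 = 1 := by rw [hb] at h00; linear_combination h00
  rw [hb, zero_mul, sub_zero] at hd
  rcases sq1_cases h1 with h3 | h3
  · left
    rw [h3, one_mul] at hd
    apply sl_ext <;> rw [sl_one_apply] <;> simp [h3, hb, hc, hd]
  · right
    rw [h3] at hd
    have h4 : m 1 1 = -1 := by linear_combination -hd
    apply sl_ext <;> rw [sl_neg_apply, sl_one_apply] <;> simp [h3, hb, hc, h4]

theorem neg_one_ne (h2 : (2 : F) ≠ 0) : (-1 : SpecialLinearGroup (Fin 2) F) ≠ 1 := by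
  intro h
  have h00 := congrArg (fun g : SpecialLinearGroup (Fin 2) F => g 0 0) h
  simp only [sl_neg_apply, sl_one_apply, if_true] at h00
  apply h2
  linear_combination -h00

attribute [local instance] slLineAction

/-- **Subgroups without elements of square `-1`.** -/
theorem odd_index [Finite F] (h2 : (2 : F) ≠ 0) (M : Subgroup (SpecialLinearGroup (Fin 2) F))
    (hneg : (-1 : SpecialLinearGroup (Fin 2) F) ∈ M) (h4 : ∀ m ∈ M, m * m ≠ -1) : Nat.card F + 1 ≤ M.index := by
  classical
  by_contra hcon
  have hidx : M.index ≤ Nat.card F := by omega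
  have htop : M ≠ ⊤ := by
    rintro rfl
    apply h4 (mk 0 (-1) 1 0 (by ring)) (Subgroup.mem_top _)
    apply sl_ext <;> rw [sl_neg_apply, sl_one_apply, sl_mul_apply] <;> simp [mk_00, mk_01, mk_10, mk_11]
  have htr := isPretransitive M hneg htop hidx
  have hc := card_stab_mul (G := M) (∞ : OnePoint F)
  rw [MulAction.orbit_eq_univ, Set.ncard_univ, card_line] at hc
  -- `2` divides the order of the stabiliser
  have hneg' : (⟨-1, hneg⟩ : M) ∈ MulAction.stabilizer M (∞ : OnePoint F) := by
    rw [MulAction.mem_stabilizer_iff]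
    exact (sl_smul_infty_eq_iff (-1)).2 (by rw [sl_neg_apply, sl_one_apply]; simp)
  have h5 : 2 ∣ Nat.card (MulAction.stabilizer M (∞ : OnePoint F)) := by
    have h6 : orderOf (⟨⟨-1, hneg⟩, hneg'⟩ : MulAction.stabilizer M (∞ : OnePoint F)) = 2 := by
      apply orderOf_eq_prime
      · rw [pow_two]
        apply Subtype.ext
        apply Subtype.ext
        show (-1 : SpecialLinearGroup (Fin 2) F) * -1 = 1
        rw [neg_mul_neg, one_mul]
      · intro h
        have h7 : (-1 : SpecialLinearGroup (Fin 2) F) = 1 := congrArg (fun x => ((x : M) : SpecialLinearGroup (Fin 2) F))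
          (congrArg Subtype.val h)
        exact neg_one_ne h2 h7
    have h7 := orderOf_dvd_natCard (⟨⟨-1, hneg⟩, hneg'⟩ : MulAction.stabilizer M (∞ : OnePoint F))
    rwa [h6] at h7
  have h6 : 2 ∣ Nat.card F + 1 := by
    have hodd : ¬ 2 ∣ Nat.card F := by
      intro hd
      apply h2
      have := Fintype.ofFinite F
      rw [Nat.card_eq_fintype_card] at hd
      have h3 : ringChar F = 2 := FiniteField.even_card_iff_char_two.2 (by omega)
      have := ringChar.Nat.cast_ringChar (R := F)
      rw [h3] at this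
      exact_mod_cast this
    omega
  have h7 : 2 ^ 2 ∣ Nat.card M := by
    rw [← hc, pow_two]
    exact Nat.mul_dvd_mul h5 h6
  obtain ⟨K, hK⟩ := Sylow.exists_subgroup_card_pow_prime 2 h7
  have h8 : ∀ k ∈ K, (k : SpecialLinearGroup (Fin 2) F) = 1 ∨ (k : SpecialLinearGroup (Fin 2) F) = -1 := by
    intro k hk
    have h9 : (k : M) ^ 4 = 1 := by
      have := pow_card_eq_one' (x := (⟨k, hk⟩ : K))
      rw [hK] at this
      exact congrArg Subtype.val this
    have h10 : ((k : SpecialLinearGroup (Fin 2) F) * k) * (k * k) = 1 := by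
      have := congrArg (fun x : M => (x : SpecialLinearGroup (Fin 2) F)) h9
      simp only [Subgroup.coe_pow, Subgroup.coe_one] at this
      rw [← pow_two, ← pow_two, ← pow_mul]
      exact this
    rcases sl_sq_eq_one h2 h10 with h11 | h11
    · exact sl_sq_eq_one h2 h11
    · exact absurd h11 (h4 _ k.2)
  have h9 : Nat.card K ≤ 2 := by
    have hinj : Function.Injective (fun k : K => decide (((k : M) : SpecialLinearGroup (Fin 2) F) = 1)) := by
      intro k k' hkk
      simp only [decide_eq_decide] at hkk
      apply Subtype.ext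
      apply Subtype.ext
      rcases h8 k k.2 with h10 | h10 <;> rcases h8 k' k'.2 with h11 | h11
      · rw [h10, h11]
      · exact absurd (hkk.1 h10) (by rw [h11]; exact neg_one_ne h2)
      · exact absurd (hkk.2 h11) (by rw [h10]; exact neg_one_ne h2)
      · rw [h10, h11]
    have := Nat.card_le_card_of_injective _ hinj
    rwa [Nat.card_eq_fintype_card (α := Bool), Fintype.card_bool] at this
  rw [hK] at h9
  norm_num at h9

theorem uni_pow (b : F) (k : ℕ) : uni b ^ k = uni (k * b) := by
  induction k with
  | zero => rw [pow_zero, Nat.cast_zero, zero_mul, uni_zero]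
  | succ k ih => rw [pow_succ, ih, ← uni_add, Nat.cast_succ, add_mul, one_mul]

theorem center_pm (h2 : (2 : F) ≠ 0) {z : SpecialLinearGroup (Fin 2) F}
    (hz : z ∈ Subgroup.center (SpecialLinearGroup (Fin 2) F)) : z = 1 ∨ z = -1 := by
  apply sl_sq_eq_one h2
  rw [Matrix.SpecialLinearGroup.mem_center_iff] at hz
  obtain ⟨r, hr, hz⟩ := hz
  have h : ∀ i j, z i j = if i = j then r else 0 := by
    intro i j
    have : (z : Matrix (Fin 2) (Fin 2) F) i j = (Matrix.scalar (Fin 2) r) i j := by rw [hz]
    rw [this, Matrix.scalar_apply, Matrix.diagonal_apply]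
  rw [Fintype.card_fin] at hr
  apply sl_ext <;> rw [sl_mul_apply, sl_one_apply] <;> simp [h, ← pow_two, hr]

/-- **Subgroups of small index.** -/
theorem sl_top [Finite F] (h2 : (2 : F) ≠ 0) (M : Subgroup (SpecialLinearGroup (Fin 2) F))
    (hneg : (-1 : SpecialLinearGroup (Fin 2) F) ∈ M)
    (h5 : M.index ^ 5 < Nat.card F ^ 2 * (Nat.card F ^ 2 + 1)) : M = ⊤ := by
  classical
  have := Fintype.ofFinite F
  by_contra htop
  have hq1 : 1 < Nat.card F := Finite.one_lt_card
  have hodd : ¬ 2 ∣ Nat.card F := by
    intro hd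
    apply h2
    rw [Nat.card_eq_fintype_card] at hd
    have h3 : ringChar F = 2 := FiniteField.even_card_iff_char_two.2 (by omega)
    have := ringChar.Nat.cast_ringChar (R := F)
    rw [h3] at this
    exact_mod_cast this
  have hlt : M.index < Nat.card F := by
    by_contra hge
    have h6 : Nat.card F ^ 5 ≤ M.index ^ 5 := Nat.pow_le_pow_left (not_lt.1 hge) 5
    have h7 : Nat.card F ^ 2 * (Nat.card F ^ 2 + 1) ≤ Nat.card F ^ 5 := by
      have h8 : Nat.card F ^ 2 + 1 ≤ Nat.card F ^ 3 := by nlinarith
      calc Nat.card F ^ 2 * (Nat.card F ^ 2 + 1) ≤ Nat.card F ^ 2 * Nat.card F ^ 3 := Nat.mul_le_mul_left _ h8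
        _ = _ := by ring
    omega
  obtain ⟨p, hp⟩ := CharP.exists F
  have hpp : Fact (Nat.Prime p) := ⟨CharP.char_is_prime F p⟩
  have hmain := Cfsg.Agent.ClassicalGeometry.MinIndexFinal.main (F := F) (E := FiniteField.Extension F p 2) M hneg
    htop hlt.le (FiniteField.natCard_extension F p 2)
  -- the prime case
  have hprime : ∀ r : ℕ, r.Prime → Nat.card F = r → False := by
    intro r hr hFr
    obtain ⟨b, hb⟩ := exists_uni_not_mem M htop hlt.le
    apply hb
    have h6 : M.relIndex (Subgroup.zpowers (uni b)) ∣ r := by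
      refine dvd_trans (Subgroup.relIndex_dvd_card M _) ?_
      rw [Nat.card_zpowers]
      apply orderOf_dvd_of_pow_eq_one
      rw [uni_pow]
      have : ((r : ℕ) : F) = 0 := by
        rw [← hFr, Nat.card_eq_fintype_card]
        exact FiniteField.cast_card_eq_zero F
      rw [this, zero_mul, uni_zero]
    have h7 : M.relIndex (Subgroup.zpowers (uni b)) ≤ M.index := by
      rw [← Subgroup.relIndex_top_right]
      exact Subgroup.relIndex_le_of_le_right le_top (by
        rw [Subgroup.relIndex_top_right]
        exact Subgroup.index_ne_zero_of_finite)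
    rcases (Nat.dvd_prime hr).1 h6 with h8 | h8
    · exact Subgroup.relIndex_eq_one.1 h8 (Subgroup.mem_zpowers _)
    · omega
  have hcase : Nat.card F = 3 ∨ Nat.card F = 5 ∨ Nat.card F = 7 ∨ Nat.card F = 9 ∨ Nat.card F = 11 := by
    rcases hmain with h | h | ⟨-, h⟩ <;> omega
  rcases hcase with h | h | h | h | h
  · exact hprime 3 (by norm_num) h
  · exact hprime 5 (by norm_num) h
  · exact hprime 7 (by norm_num) h
  · -- nine
    have hidx : M.index ≤ 5 := by
      by_contra hge
      have h6 : 6 ^ 5 ≤ M.index ^ 5 := Nat.pow_le_pow_left (by omega) 5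
      rw [h] at h5
      norm_num at h5 h6
      omega
    have hs := Cfsg.Agent.TwoFusion.SLTwoFacts.isSimpleGroup_psl (F := F) (by
      rw [← Nat.card_eq_fintype_card, h]
      norm_num)
    let mk' : SpecialLinearGroup (Fin 2) F →* Matrix.ProjectiveSpecialLinearGroup (Fin 2) F :=
      QuotientGroup.mk' (Subgroup.center (SpecialLinearGroup (Fin 2) F))
    have hsurj : Function.Surjective mk' := QuotientGroup.mk'_surjective _
    have hker : mk'.ker = Subgroup.center (SpecialLinearGroup (Fin 2) F) := QuotientGroup.ker_mk' _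
    have hi : (M.map mk').index = M.index := by
      apply Subgroup.index_map_eq _ hsurj
      rw [hker]
      intro z hz
      rcases center_pm h2 hz with rfl | rfl
      · exact M.one_mem
      · exact hneg
    have hne : M.map mk' ≠ ⊤ := by
      intro h6
      apply htop
      rw [← Subgroup.index_eq_one, ← hi, h6, Subgroup.index_top]
    have h6 := Cfsg.Agent.H554.card_dvd_factorial hne
    have h7 : Nat.card (Matrix.ProjectiveSpecialLinearGroup (Fin 2) F) ≤ 120 := by
      refine le_trans (Nat.le_of_dvd (Nat.factorial_pos _) h6) ?_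
      rw [hi]
      exact Nat.factorial_le hidx
    have h8 : Nat.card (Subgroup.center (SpecialLinearGroup (Fin 2) F)) ≤ 2 := by
      have hinj : Function.Injective (fun k : Subgroup.center (SpecialLinearGroup (Fin 2) F) =>
          decide ((k : SpecialLinearGroup (Fin 2) F) = 1)) := by
        intro k k' hkk
        simp only [decide_eq_decide] at hkk
        apply Subtype.ext
        rcases center_pm h2 k.2 with h10 | h10 <;> rcases center_pm h2 k'.2 with h11 | h11
        · rw [h10, h11]
        · exact absurd (hkk.1 h10) (by rw [h11]; exact neg_one_ne h2)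
        · exact absurd (hkk.2 h11) (by rw [h10]; exact neg_one_ne h2)
        · rw [h10, h11]
      have := Nat.card_le_card_of_injective _ hinj
      rwa [Nat.card_eq_fintype_card (α := Bool), Fintype.card_bool] at this
    have h9 := Subgroup.card_eq_card_quotient_mul_card_subgroup (Subgroup.center (SpecialLinearGroup (Fin 2) F))
    rw [card_sl2, h] at h9
    have h10 : Nat.card (SpecialLinearGroup (Fin 2) F ⧸ Subgroup.center (SpecialLinearGroup (Fin 2) F)) ≤ 120 := h7
    have h11 := Nat.mul_le_mul h10 h8
    rw [← h9] at h11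
    norm_num at h11
  · exact hprime 11 (by norm_num) h

end

end Cfsg.Agent.H804.P4
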